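import Cfsg.Agent.GL2D.Frob
import Cfsg.Prelude.Def_SporadicB

/-!
The double cover of `A₇` is not an irreducible subgroup of `GL₂(D)` (S3259).
-/

set_option autoImplicit false

namespace Cfsg.Agent.GL2D

universe u v

variable {R : Type u} [Ring R] [Algebra ℚ R] [Nontrivial R] {H : Type v} [Group H] [Finite H]
  {ρ : H →* R}

set_option maxRecDepth 10000 in
theorem Rk2.not_cover_A7 (hR : Rk2 R) (hi : Irr ρ) (hρ : Function.Injective ρ) :
    ¬ Cfsg.IsNonsplitDoubleCover H (alternatingGroup (Fin 7)) := by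
  rintro ⟨hc, ⟨e⟩, -⟩
  let π : H →* alternatingGroup (Fin 7) := e.toMonoidHom.comp (QuotientGroup.mk' _)
  have hπ : Function.Surjective π := e.surjective.comp (QuotientGroup.mk'_surjective _)
  have hker : ∀ x, π x = 1 → x ∈ Subgroup.center H := by
    intro x hx
    have : (x : H ⧸ Subgroup.center H) = 1 := e.injective (by rw [map_one]; exact hx)
    exact (QuotientGroup.eq_one_iff x).1 this
  have hsq : ∀ x ∈ Subgroup.center H, x ^ 2 = 1 := by
    intro x hx
    have := pow_card_eq_one' (G := Subgroup.center H) (x := ⟨x, hx⟩)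
    rw [hc] at this
    exact congrArg Subtype.val this
  let a₀ : alternatingGroup (Fin 7) :=
    ⟨c[0, 1, 2, 3, 4, 5, 6], by rw [Equiv.Perm.mem_alternatingGroup]; decide⟩
  let b₀ : alternatingGroup (Fin 7) :=
    ⟨c[1, 2, 4] * c[3, 6, 5], by rw [Equiv.Perm.mem_alternatingGroup]; decide⟩
  have ha₀ : a₀ ^ 7 = 1 := Subtype.ext (by decide)
  have hb₀ : b₀ ^ 3 = 1 := Subtype.ext (by decide)
  have ha₁ : a₀ ≠ 1 := fun h => absurd (congrArg Subtype.val h) (by decide)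
  have hab : b₀ * a₀ = a₀ ^ 2 * b₀ := Subtype.ext (by decide)
  obtain ⟨a₁, ha⟩ := hπ a₀
  obtain ⟨b₁, hb⟩ := hπ b₀
  have e1 : π (a₁ ^ 8) = a₀ := by rw [map_pow, ha, pow_succ, ha₀, one_mul]
  have e2 : π (b₁ ^ 4) = b₀ := by rw [map_pow, hb, pow_succ, hb₀, one_mul]
  have e3 : (a₁ ^ 8) ^ 7 = 1 := by
    have := hsq _ (hker (a₁ ^ 7) (by rw [map_pow, ha, ha₀]))
    rw [← pow_mul, show 8 * 7 = 7 * 2 * 4 by norm_num, pow_mul, pow_mul, this, one_pow]
  have e4 : (b₁ ^ 4) ^ 3 = 1 := by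
    have := hsq _ (hker (b₁ ^ 3) (by rw [map_pow, hb, hb₀]))
    rw [← pow_mul, show 4 * 3 = 3 * 2 * 2 by norm_num, pow_mul, pow_mul, this, one_pow]
  set a := a₁ ^ 8
  set b := b₁ ^ 4
  have hz : b * a * b⁻¹ * (a ^ 2)⁻¹ ∈ Subgroup.center H := hker _ (by
    rw [map_mul, map_mul, map_mul, map_inv, map_inv, map_pow π a, e1, e2, hab]
    group)
  set z := b * a * b⁻¹ * (a ^ 2)⁻¹ with hzd
  have h1 : b * a * b⁻¹ = z * a ^ 2 := by rw [hzd]; group
  have h2 : z = 1 := by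
    have h3 : (b * a * b⁻¹) ^ 7 = 1 := by rw [conj_pow, e3]; group
    have hc : Commute z (a ^ 2) := (Subgroup.mem_center_iff.1 hz _).symm
    rw [h1, hc.mul_pow, ← pow_mul, mul_comm 2 7, pow_mul, e3, one_pow, mul_one,
      show 7 = 2 * 3 + 1 by norm_num, pow_succ, pow_mul, hsq z hz, one_pow, one_mul] at h3
    exact h3
  refine hR.no_frob hi hρ (p := 7) (by norm_num) e3 (fun h => ha₁ (by rw [← e1, h, map_one]))
    (b := b) (s := 2) (r := 3) le_rfl e4 (by norm_num) ?_ ?_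
  · rw [h2, one_mul] at h1
    rw [← h1]
    group
  · intro m h0 hm
    interval_cases m <;> decide

end Cfsg.Agent.GL2D
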