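import Mathlib.RingTheory.Idempotents
import Mathlib.Algebra.Field.Basic
import Mathlib.Algebra.Algebra.Rat
import Mathlib.LinearAlgebra.Matrix.NonsingularInverse
import Mathlib.Data.Matrix.Basic
import Mathlib.Tactic

/-!
Ring facts for finite subgroups of `GL₂(D)` (S3259).  `Rk2 R` is the only property of
`M₂(D)` that is used: for an idempotent `f ≠ 1` the left ideal `R f` is zero or minimal.
-/

set_option autoImplicit false

namespace Cfsg.Agent.GL2D

universe u

/-- Rank at most two: for each idempotent `f ≠ 1` the left ideal `R f` is zero or minimal. -/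
def Rk2 (R : Type*) [Ring R] : Prop :=
  ∀ f : R, IsIdempotentElem f → f ≠ 1 → ∀ x : R, x * f ≠ 0 → ∃ b : R, b * (x * f) = f

theorem rk2_divisionRing (D : Type*) [DivisionRing D] : Rk2 D := by
  intro f hf hf1 x hx
  rcases IsIdempotentElem.iff_eq_zero_or_one.1 hf with h | h
  · simp [h] at hx
  · exact absurd h hf1

theorem rk2_matrix (D : Type*) [DivisionRing D] : Rk2 (Matrix (Fin 2) (Fin 2) D) := by
  intro f hf hf1 x hx
  have h1 : (1 - f) ≠ 0 := fun h => hf1 (sub_eq_zero.1 h).symm
  have h2 : f * (1 - f) = 0 := hf.mul_one_sub_self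
  obtain ⟨k, l, hkl⟩ : ∃ k l, (1 - f) k l ≠ 0 := by
    by_contra h
    push Not at h
    exact h1 (Matrix.ext h)
  obtain ⟨i₀, j₀, hij⟩ : ∃ i j, (x * f) i j ≠ 0 := by
    by_contra h
    push Not at h
    exact hx (Matrix.ext h)
  set y := x * f with hy
  set w : Fin 2 → D := fun i => (1 - f) i l with hw
  have hf0 : ∀ i, f i 0 * w 0 + f i 1 * w 1 = 0 := by
    intro i
    have := congrFun (congrFun h2 i) l
    simpa [Matrix.mul_apply, Fin.sum_univ_two, hw] using this
  have hy0 : y i₀ 0 * w 0 + y i₀ 1 * w 1 = 0 := by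
    have h3 : y * (1 - f) = 0 := by rw [hy, mul_assoc, h2, mul_zero]
    have := congrFun (congrFun h3 i₀) l
    simpa [Matrix.mul_apply, Fin.sum_univ_two, hw] using this
  have key : ∀ i, ∃ c : D, ∀ j, f i j = c * y i₀ j := by
    intro i
    by_cases hw0 : w 0 = 0
    · have hw1 : w 1 ≠ 0 := by
        intro h
        fin_cases k
        · exact hkl hw0
        · exact hkl h
      have a1 : y i₀ 1 = 0 := by
        rw [hw0, mul_zero, zero_add] at hy0
        exact (mul_eq_zero.1 hy0).resolve_right hw1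
      have a2 : f i 1 = 0 := by
        have := hf0 i
        rw [hw0, mul_zero, zero_add] at this
        exact (mul_eq_zero.1 this).resolve_right hw1
      have a3 : y i₀ 0 ≠ 0 := by
        intro h
        fin_cases j₀
        · exact hij h
        · exact hij a1
      refine ⟨f i 0 * (y i₀ 0)⁻¹, fun j => ?_⟩
      fin_cases j
      · simp [a3]
      · simp [a1, a2]
    · have a1 : y i₀ 0 = - (y i₀ 1 * w 1 * (w 0)⁻¹) := by
        have : y i₀ 0 * w 0 = - (y i₀ 1 * w 1) := eq_neg_of_add_eq_zero_left hy0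
        rw [← neg_mul, ← this, mul_assoc, mul_inv_cancel₀ hw0, mul_one]
      have a2 : f i 0 = - (f i 1 * w 1 * (w 0)⁻¹) := by
        have : f i 0 * w 0 = - (f i 1 * w 1) := eq_neg_of_add_eq_zero_left (hf0 i)
        rw [← neg_mul, ← this, mul_assoc, mul_inv_cancel₀ hw0, mul_one]
      have a3 : y i₀ 1 ≠ 0 := by
        intro h
        fin_cases j₀
        · apply hij
          simp only [Fin.zero_eta]
          rw [a1, h]; simp
        · exact hij h
      refine ⟨f i 1 * (y i₀ 1)⁻¹, fun j => ?_⟩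
      fin_cases j
      · simp only [Fin.zero_eta]
        rw [a2, a1, mul_neg, ← mul_assoc, ← mul_assoc, mul_assoc (f i 1) _ (y i₀ 1),
          inv_mul_cancel₀ a3, mul_one]
      · simp [a3]
  choose c hc using key
  refine ⟨Matrix.of fun i j => if j = i₀ then c i else 0, ?_⟩
  ext i j
  rw [Matrix.mul_apply, hc i j]
  simp

section ring
variable {R : Type u} [Ring R]

/-- `R e ≤ R f` with `e ≠ 0`, `f ≠ 1` forces `R e = R f`. -/
theorem Rk2.mul_eq (hR : Rk2 R) {e f : R} (he : IsIdempotentElem e) (hf : IsIdempotentElem f)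
    (he0 : e ≠ 0) (hf1 : f ≠ 1) (h : e * f = e) : f * e = f := by
  obtain ⟨b, hb⟩ := hR f hf hf1 e (by rwa [h])
  rw [h] at hb
  rw [← hb, mul_assoc, he.eq]

/-- Two orthogonal non-zero idempotents add up to `1`. -/
theorem Rk2.add_eq_one (hR : Rk2 R) {e f : R} (he : IsIdempotentElem e) (hf : IsIdempotentElem f)
    (he0 : e ≠ 0) (hf0 : f ≠ 0) (h1 : e * f = 0) (h2 : f * e = 0) : e + f = 1 := by
  by_contra h
  have hg : IsIdempotentElem (e + f) := by
    unfold IsIdempotentElem
    rw [add_mul, mul_add, mul_add, he.eq, hf.eq, h1, h2, add_zero, zero_add]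
  have h3 : e * (e + f) = e := by rw [mul_add, he.eq, h1, add_zero]
  have h4 := hR.mul_eq he hg he0 h h3
  rw [add_mul, he.eq, h2, add_zero] at h4
  apply hf0
  have : e + f = e + 0 := by rw [add_zero]; exact h4.symm
  exact add_left_cancel this

/-- Commuting proper idempotents are equal or complementary. -/
theorem Rk2.eq_or_add (hR : Rk2 R) {e f : R} (he : IsIdempotentElem e) (hf : IsIdempotentElem f)
    (he0 : e ≠ 0) (he1 : e ≠ 1) (hf0 : f ≠ 0) (hf1 : f ≠ 1) (h : Commute e f) :
    e = f ∨ e + f = 1 := by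
  by_cases h0 : e * f = 0
  · exact Or.inr (hR.add_eq_one he hf he0 hf0 h0 (by rw [← h.eq, h0]))
  · left
    have hef : IsIdempotentElem (e * f) := he.mul_of_commute h hf
    have a1 := hR.mul_eq hef hf h0 hf1 (by rw [mul_assoc, hf.eq])
    have a2 := hR.mul_eq hef he h0 he1 (by rw [h.eq, mul_assoc, he.eq])
    rw [← mul_assoc, he.eq] at a2
    rw [h.eq, ← mul_assoc, hf.eq, ← h.eq] at a1
    rw [← a2, a1]

/-- A non-zero element of a proper corner has a left inverse there. -/
theorem Rk2.cancel (hR : Rk2 R) {f x y : R} (hf : IsIdempotentElem f) (hf1 : f ≠ 1)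
    (hx : x * f ≠ 0) (hy : x * f * y = 0) : f * y = 0 := by
  obtain ⟨b, hb⟩ := hR f hf hf1 x hx
  rw [← hb, mul_assoc, hy, mul_zero]

variable [Algebra ℚ R]

theorem half_idem {s : R} (hs : s * s = 1) : IsIdempotentElem ((1 / 2 : ℚ) • (1 + s)) := by
  unfold IsIdempotentElem
  rw [smul_mul_smul_comm, add_mul, mul_add, mul_add, hs]
  simp only [one_mul, mul_one]
  module

theorem half_eq_zero {s : R} : (1 / 2 : ℚ) • (1 + s) = 0 ↔ s = -1 := by
  constructor
  · intro h
    have : (1 + s) = 0 := by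
      have h2 := congrArg (fun z => (2 : ℚ) • z) h
      simpa [smul_smul] using h2
    exact eq_neg_of_add_eq_zero_right this
  · rintro rfl; simp

theorem half_eq_one {s : R} : (1 / 2 : ℚ) • (1 + s) = 1 ↔ s = 1 := by
  constructor
  · intro h
    have h2 := congrArg (fun z => (2 : ℚ) • z) h
    simp only [smul_smul] at h2
    norm_num at h2
    have : (1 : R) + s = 1 + 1 := by rw [h2, two_smul]
    exact add_left_cancel this
  · rintro rfl
    rw [← two_smul ℚ (1 : R), smul_smul]; norm_num

/-- Two commuting involutions: one of them is `±1`, or they agree up to sign. -/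
theorem Rk2.inv_comm (hR : Rk2 R) {s t : R} (hs : s * s = 1) (ht : t * t = 1) (h : Commute s t)
    (hs1 : s ≠ 1) (hs2 : s ≠ -1) (ht1 : t ≠ 1) (ht2 : t ≠ -1) : s = t ∨ s = -t := by
  have hc : Commute ((1 / 2 : ℚ) • (1 + s)) ((1 / 2 : ℚ) • (1 + t)) :=
    (((Commute.one_left _).add_left ((Commute.one_right s).add_right h)).smul_left _).smul_right _
  rcases hR.eq_or_add (half_idem hs) (half_idem ht) (mt half_eq_zero.1 hs2) (mt half_eq_one.1 hs1)
    (mt half_eq_zero.1 ht2) (mt half_eq_one.1 ht1) hc with h1 | h1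
  · left
    have h2 := congrArg (fun z => (2 : ℚ) • z) h1
    simpa [smul_smul] using h2
  · right
    have h2 := congrArg (fun z => (2 : ℚ) • z) h1
    simp only [smul_add, smul_smul] at h2
    norm_num at h2
    rw [two_smul] at h2
    have : s + t = 0 := by
      have h3 : s + t = (1 + s + (1 + t)) - (1 + 1) := by abel
      rw [h3, ← h2]
      simp
    exact eq_neg_of_add_eq_zero_left this

/-- The average of the first `n` powers of `x`. -/
noncomputable def avg (n : ℕ) (x : R) : R := (n : ℚ)⁻¹ • ∑ j ∈ Finset.range n, x ^ j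

theorem commute_avg {n : ℕ} {x y : R} (h : Commute y x) : Commute y (avg n x) :=
  (Commute.sum_right _ _ _ fun j _ => h.pow_right j).smul_right _

theorem mul_avg {n : ℕ} {x : R} (hx : x ^ n = 1) : x * avg n x = avg n x := by
  unfold avg
  rw [mul_smul_comm, Finset.mul_sum]
  congr 1
  have h1 := Finset.sum_range_succ (fun j => x ^ j) n
  have h2 := Finset.sum_range_succ' (fun j => x ^ j) n
  simp only [hx, pow_zero] at h1 h2
  have : ∑ j ∈ Finset.range n, x ^ (j + 1) = ∑ j ∈ Finset.range n, x ^ j :=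
    add_right_cancel (h2.symm.trans h1)
  rw [← this]
  exact Finset.sum_congr rfl fun j _ => (pow_succ' x j).symm

theorem avg_mul {n : ℕ} {x : R} (hx : x ^ n = 1) : avg n x * x = avg n x := by
  rw [← (commute_avg (Commute.refl x)).eq, mul_avg hx]

theorem avg_mul_of {n : ℕ} (hn : n ≠ 0) {x e : R} (h : x * e = e) : avg n x * e = e := by
  have h1 : ∀ j : ℕ, x ^ j * e = e := by
    intro j
    induction j with
    | zero => simp
    | succ j ih => rw [pow_succ, mul_assoc, h, ih]
  unfold avg
  rw [smul_mul_assoc, Finset.sum_mul, Finset.sum_congr rfl fun j _ => h1 j, Finset.sum_const,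
    Finset.card_range, ← Nat.cast_smul_eq_nsmul ℚ, smul_smul, inv_mul_cancel₀ (by exact_mod_cast hn),
    one_smul]

theorem mul_avg_of {n : ℕ} (hn : n ≠ 0) {x e : R} (h : e * x = e) : e * avg n x = e := by
  have h1 : ∀ j : ℕ, e * x ^ j = e := by
    intro j
    induction j with
    | zero => simp
    | succ j ih => rw [pow_succ', ← mul_assoc, h, ih]
  unfold avg
  rw [mul_smul_comm, Finset.mul_sum, Finset.sum_congr rfl fun j _ => h1 j, Finset.sum_const,
    Finset.card_range, ← Nat.cast_smul_eq_nsmul ℚ, smul_smul, inv_mul_cancel₀ (by exact_mod_cast hn),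
    one_smul]

theorem pow_mul_avg {n : ℕ} {x : R} (hx : x ^ n = 1) (k : ℕ) : x ^ k * avg n x = avg n x := by
  induction k with
  | zero => simp
  | succ k ih => rw [pow_succ, mul_assoc, mul_avg hx, ih]

theorem avg_mul_pow {n : ℕ} {x : R} (hx : x ^ n = 1) (k : ℕ) : avg n x * x ^ k = avg n x := by
  rw [← (commute_avg ((Commute.refl x).pow_left k)).eq, pow_mul_avg hx]

theorem avg_idem {n : ℕ} (hn : n ≠ 0) {x : R} (hx : x ^ n = 1) : IsIdempotentElem (avg n x) :=
  avg_mul_of hn (mul_avg hx)

theorem avg_ne_one {n : ℕ} {x : R} (hx : x ^ n = 1) (h1 : x ≠ 1) : avg n x ≠ 1 := by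
  intro h
  have := mul_avg hx
  rw [h, mul_one] at this
  exact h1 this

theorem avg_conj {n : ℕ} {x u v : R} (h1 : u * v = 1) (h2 : v * u = 1) :
    avg n (u * x * v) = u * avg n x * v := by
  have h : ∀ j : ℕ, (u * x * v) ^ j = u * x ^ j * v := by
    intro j
    induction j with
    | zero => simp [h1]
    | succ j ih =>
      rw [pow_succ, ih, pow_succ]
      simp only [mul_assoc]
      rw [← mul_assoc v u, h2, one_mul]
  unfold avg
  simp only [h, mul_smul_comm, smul_mul_assoc, Finset.mul_sum, Finset.sum_mul]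

theorem avg_pow_eq {n : ℕ} (hn : n ≠ 0) {x : R} (hx : x ^ n = 1) {j : ℕ} (hj : j.Coprime n) :
    avg n (x ^ j) = avg n x := by
  have hy : (x ^ j) ^ n = 1 := by rw [← pow_mul, mul_comm, pow_mul, hx, one_pow]
  obtain ⟨k, hk⟩ : ∃ k, (x ^ j) ^ k = x := by
    rcases Nat.lt_or_ge 1 n with h | h
    · obtain ⟨k, -, hk⟩ := Nat.exists_mul_mod_eq_one_of_coprime hj h
      refine ⟨k, ?_⟩
      rw [← pow_mul, ← Nat.div_add_mod (j * k) n, hk, pow_add, pow_mul, hx, one_pow, one_mul, pow_one]
    · have : n = 1 := by omega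
      subst this
      rw [pow_one] at hx
      exact ⟨0, by simp [hx]⟩
  have a1 : avg n (x ^ j) * avg n x = avg n x := avg_mul_of hn (pow_mul_avg hx j)
  have a2 : avg n (x ^ j) * avg n x = avg n (x ^ j) :=
    mul_avg_of hn (by
      have := avg_mul_pow hy k
      rwa [hk] at this)
  rw [← a2, a1]

theorem smul_avg {n : ℕ} (hn : n ≠ 0) (x : R) :
    (n : ℚ) • avg n x = ∑ j ∈ Finset.range n, x ^ j := by
  unfold avg
  rw [smul_smul, mul_inv_cancel₀ (by exact_mod_cast hn), one_smul]

/-- The partition identity of `C_p × C_p`. -/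
theorem sum_avg {p : ℕ} (hp : p.Prime) {x y : R} (hx : x ^ p = 1) (h : Commute x y) :
    ∑ i ∈ Finset.range p, avg p (x ^ i * y) + avg p x = 1 + (p : ℚ) • (avg p x * avg p y) := by
  have hp0 := hp.ne_zero
  have hpq : (p : ℚ) ≠ 0 := by exact_mod_cast hp0
  have h1 : ∑ i ∈ Finset.range p, ∑ j ∈ Finset.range p, (x ^ i * y) ^ j
      = ∑ j ∈ Finset.range p, ((p : ℚ) • avg p (x ^ j)) * y ^ j := by
    rw [Finset.sum_comm]
    refine Finset.sum_congr rfl fun j _ => ?_
    rw [smul_avg hp0, Finset.sum_mul]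
    refine Finset.sum_congr rfl fun i _ => ?_
    rw [(h.pow_left i).mul_pow, ← pow_mul, ← pow_mul, mul_comm i j]
  obtain ⟨q, rfl⟩ : ∃ q, p = q + 1 := ⟨p - 1, by omega⟩
  have h2 : ∑ j ∈ Finset.range (q + 1), (((q + 1 : ℕ) : ℚ) • avg (q + 1) (x ^ j)) * y ^ j
      + ((q + 1 : ℕ) : ℚ) • avg (q + 1) x = ((q + 1 : ℕ) : ℚ) • (1 : R)
      + ((q + 1 : ℕ) : ℚ) • (avg (q + 1) x * ∑ j ∈ Finset.range (q + 1), y ^ j) := by
    rw [Finset.sum_range_succ', Finset.sum_range_succ', mul_add, smul_add, Finset.mul_sum,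
      Finset.smul_sum]
    have a1 : avg (q + 1) (x ^ 0) = 1 := by
      have := avg_mul_of (R := R) hp0 (x := x ^ 0) (e := 1) (by simp)
      rwa [mul_one] at this
    have a2 : ∑ k ∈ Finset.range q, (((q + 1 : ℕ) : ℚ) • avg (q + 1) (x ^ (k + 1))) * y ^ (k + 1)
        = ∑ k ∈ Finset.range q, ((q + 1 : ℕ) : ℚ) • (avg (q + 1) x * y ^ (k + 1)) := by
      refine Finset.sum_congr rfl fun k hk => ?_
      rw [avg_pow_eq hp0 hx, smul_mul_assoc]
      have hk' := Finset.mem_range.1 hk
      exact (Nat.coprime_of_lt_prime (by omega) (by omega) hp).symm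
    rw [a1, a2]
    simp only [pow_zero, mul_one]
    abel
  apply smul_right_injective R hpq
  simp only [smul_add, Finset.smul_sum, smul_avg hp0]
  rw [h1, ← smul_avg hp0 x, h2, ← smul_avg hp0 y, mul_smul_comm]

/-- In `C_p × C_p` some subgroup of order `p` has a non-zero average. -/
theorem exists_avg_ne_zero [Nontrivial R] {p : ℕ} (hp : p.Prime) {x y : R} (hx : x ^ p = 1)
    (h : Commute x y) : avg p x ≠ 0 ∨ ∃ i < p, avg p (x ^ i * y) ≠ 0 := by
  by_contra hc
  push Not at hc
  have := sum_avg hp hx h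
  rw [hc.1, Finset.sum_eq_zero fun i hi => hc.2 i (Finset.mem_range.1 hi)] at this
  simp at this

/-- A faithful `C_p × C_p` has no fixed line. -/
theorem Rk2.avg_mul_avg (hR : Rk2 R) {p : ℕ} (hp : p.Prime) {x y : R} (hx : x ^ p = 1)
    (hy : y ^ p = 1) (h : Commute x y) (hx1 : x ≠ 1) (hxy : ∀ i < p, x ^ i * y ≠ 1) :
    avg p x * avg p y = 0 := by
  by_contra hE
  have hp0 := hp.ne_zero
  set E := avg p x * avg p y with hEd
  have hc : Commute (avg p x) (avg p y) := commute_avg (commute_avg h.symm).symm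
  have hEi : IsIdempotentElem E := (avg_idem hp0 hx).mul_of_commute hc (avg_idem hp0 hy)
  have hxE : x * E = E := by rw [hEd, ← mul_assoc, mul_avg hx]
  have hyE : y * E = E := by rw [hEd, hc.eq, ← mul_assoc, mul_avg hy]
  have hE1 : E ≠ 1 := by
    intro h1
    rw [h1, mul_one] at hxE
    exact hx1 hxE
  have hcx : Commute x E := (commute_avg (Commute.refl x)).mul_right (commute_avg h)
  have hcy : Commute y E := (commute_avg h.symm).mul_right (commute_avg (Commute.refl y))
  have key : ∀ w : R, w ^ p = 1 → w ≠ 1 → w * E = E → Commute w E → avg p w = E := by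
    intro w hw hw1 hwE hwc
    have a1 : avg p w * E = E := avg_mul_of hp0 hwE
    have a0 : avg p w ≠ 0 := by
      intro h0
      rw [h0, zero_mul] at a1
      exact hE a1.symm
    rcases hR.eq_or_add (avg_idem hp0 hw) hEi a0 (avg_ne_one hw hw1) hE hE1
      (commute_avg hwc.symm).symm with h1 | h1
    · exact h1
    · exfalso
      have := congrArg (· * E) h1
      simp only [add_mul, a1, hEi.eq, one_mul] at this
      apply hE
      have h2 : E + E = E + 0 := by rw [add_zero]; exact this
      exact add_left_cancel h2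
  have hxiE : ∀ i : ℕ, x ^ i * E = E := by
    intro i
    rw [hEd, ← mul_assoc, pow_mul_avg hx]
  have h1 := sum_avg hp hx h
  rw [key x hx hx1 hxE hcx, Finset.sum_congr rfl (g := fun _ => E) fun i hi =>
    key (x ^ i * y) (by rw [(h.pow_left i).mul_pow, ← pow_mul, mul_comm i p, pow_mul, hx, hy]; simp)
      (hxy i (Finset.mem_range.1 hi)) (by rw [mul_assoc, hyE, hxiE])
      ((hcx.pow_left i).mul_left hcy), Finset.sum_const, Finset.card_range,
    ← Nat.cast_smul_eq_nsmul ℚ] at h1
  have h2 : E * avg p y = E := mul_avg_of hp0 (by rw [← hcy.eq, hyE])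
  rw [h2, add_comm] at h1
  exact hE1 (add_right_cancel h1)

/-- A group commuting with a proper idempotent `e` acts on the line of `e` through a division
ring. -/
theorem Rk2.exists_corner (hR : Rk2 R) {e : R} (he : IsIdempotentElem e) (he0 : e ≠ 0)
    (he1 : e ≠ 1) {G : Type*} [Group G] (ρ : G →* R) (hc : ∀ g, Commute e (ρ g)) :
    ∃ (E : Type u) (_ : DivisionRing E) (_ : CharZero E) (π : G →* Eˣ),
      ∀ g, π g = 1 ↔ e * ρ g = e := by
  classical
  have : Nontrivial he.Corner := ⟨⟨1, 0, fun h => he0 (congrArg Subtype.val h)⟩⟩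
  have hl : ∀ a : he.Corner, a ≠ 0 → ∃ b : he.Corner, b * a = 1 := by
    intro a ha
    obtain ⟨h1, h2⟩ := (Subsemigroup.mem_corner_iff he).1 a.2
    obtain ⟨b, hb⟩ := hR e he he1 a.1 (by
      rw [h2]; exact fun h => ha (Subtype.ext h))
    refine ⟨⟨e * b * e, b, rfl⟩, Subtype.ext ?_⟩
    change e * b * e * a.1 = e
    rw [h2] at hb
    rw [mul_assoc, h1, mul_assoc, hb, he.eq]
  have hu : ∀ a : he.Corner, IsUnit a ∨ a = 0 := by
    intro a
    by_cases ha : a = 0
    · exact Or.inr ha
    · left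
      obtain ⟨b, hb⟩ := hl a ha
      have hb0 : b ≠ 0 := by
        rintro rfl
        simp at hb
      obtain ⟨c, hc⟩ := hl b hb0
      have : c = a := by rw [← mul_one c, ← hb, ← mul_assoc, hc, one_mul]
      subst this
      exact ⟨⟨c, b, hc, hb⟩, rfl⟩
  let : DivisionRing he.Corner := DivisionRing.ofIsUnitOrEqZero hu
  have hval : ∀ n : ℕ, ((n : he.Corner).1 : R) = (n : ℚ) • e := by
    intro n
    induction n with
    | zero => simp; rfl
    | succ n ih =>
      rw [Nat.cast_succ, Nat.cast_succ, add_smul, one_smul, ← ih]; rfl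
  have : CharZero he.Corner := by
    refine charZero_of_inj_zero fun n hn => ?_
    have h1 := hval n
    rw [hn] at h1
    by_contra h0
    have h2 : (n : ℚ) • e = 0 := h1.symm
    exact he0 ((smul_eq_zero.1 h2).resolve_left (by exact_mod_cast h0))
  let φ : G →* he.Corner :=
    { toFun := fun g => ⟨e * ρ g * e, ρ g, rfl⟩
      map_one' := Subtype.ext (by
        change e * ρ 1 * e = e
        rw [map_one, mul_one, he.eq])
      map_mul' := fun a b => Subtype.ext (by
        change e * ρ (a * b) * e = e * ρ a * e * (e * ρ b * e)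
        rw [map_mul, mul_assoc (e * ρ a) e, ← mul_assoc e (e * ρ b), ← mul_assoc e e, he.eq,
          ← mul_assoc (e * ρ a), ← mul_assoc (e * ρ a), mul_assoc e (ρ a) e, ← (hc a).eq,
          ← mul_assoc e e, he.eq, mul_assoc e (ρ a)]) }
  refine ⟨he.Corner, inferInstance, inferInstance, φ.toHomUnits, fun g => ?_⟩
  rw [← Units.val_eq_one, MonoidHom.coe_toHomUnits]
  have : e * ρ g * e = e * ρ g := by rw [mul_assoc, ← (hc g).eq, ← mul_assoc, he.eq]
  constructor
  · intro h
    rw [← this]
    exact congrArg Subtype.val h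
  · intro h
    refine Subtype.ext ?_
    change e * ρ g * e = e
    rw [this, h]

end ring

end Cfsg.Agent.GL2D
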