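import Cfsg.Agent.GL2D.Tr
import Cfsg.Agent.GT.PGroupCyclicNormal
import Cfsg.Agent.GT.TransferEval

/-!
Odd Sylow subgroups of finite subgroups of `GL₂(D)` are abelian; a normal subgroup without proper
supplement in a perfect such group with simple quotient is a 2-group (S3259).
-/

set_option autoImplicit false

namespace Cfsg.Agent.GL2D

open scoped commutatorElement

universe u v

theorem exists_pair {P : Type*} [Group P] [Finite P] {p : ℕ} (hp : p.Prime) {A : Subgroup P}
    (hA : Cfsg.IsElementaryAbelian p A) (hc : Nat.card A = p ^ 2) :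
    ∃ x ∈ A, ∃ y ∈ A, x ≠ 1 ∧ ∀ i : ℕ, x ^ i * y ≠ 1 := by
  have h1 : 1 < Nat.card A := by
    rw [hc]
    exact Nat.one_lt_pow (by norm_num) hp.one_lt
  have : Nontrivial A := Finite.one_lt_card_iff_nontrivial.1 h1
  obtain ⟨x, hx⟩ := exists_ne (1 : A)
  have hx1 : (x : P) ≠ 1 := fun h => hx (Subtype.ext h)
  have : Fact p.Prime := ⟨hp⟩
  have hox : orderOf (x : P) = p := orderOf_eq_prime (hA.2 _ x.2) hx1
  have : ¬ A ≤ Subgroup.zpowers (x : P) := by
    intro h
    have h2 := Subgroup.card_le_of_le h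
    rw [hc, Nat.card_zpowers, hox] at h2
    have := hp.one_lt
    nlinarith
  obtain ⟨y, hy, hy'⟩ := SetLike.not_le_iff_exists.1 this
  refine ⟨x, x.2, y, hy, hx1, fun i h => hy' ?_⟩
  rw [eq_inv_of_mul_eq_one_right h]
  exact inv_mem (Subgroup.npow_mem_zpowers _ _)

theorem commutator_eq_one_of_divisionRing {E : Type*} [DivisionRing E] [CharZero E] {P : Type*}
    [Group P] [Finite P] {p : ℕ} [hp : Fact p.Prime] (hp2 : p ≠ 2) (hP : IsPGroup p P)
    (π : P →* Eˣ) (x y : P) : π ⁅x, y⁆ = 1 := by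
  have : Finite π.range := Finite.of_surjective _ π.rangeRestrict_surjective
  have hQ : IsPGroup p π.range := hP.of_surjective _ π.rangeRestrict_surjective
  have hcyc : IsCyclic π.range := by
    by_contra hn
    obtain ⟨A, -, hA, hc⟩ := GT.PG.exists_normal_elementary_sq_of_odd hp2 hQ hn
    obtain ⟨a, ha, b, hb, ha1, hab⟩ := exists_pair hp.out hA hc
    let φ : π.range →* E := (Units.coeHom E).comp π.range.subtype
    have hφ : Function.Injective φ := Units.val_injective.comp Subtype.val_injective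
    have h0 : ∀ w ∈ A, w ≠ 1 → avg p (φ w) = 0 := by
      intro w hw hw1
      have h1 : φ w ^ p = 1 := by rw [← map_pow, hA.2 w hw, map_one]
      exact (IsIdempotentElem.iff_eq_zero_or_one.1 (avg_idem hp.out.ne_zero h1)).resolve_right
        (avg_ne_one h1 fun h => hw1 (hφ (by rw [h, map_one])))
    have := hA.1
    rcases exists_avg_ne_zero hp.out (x := φ a) (y := φ b) (by rw [← map_pow, hA.2 a ha, map_one])
      (Commute.map (setLike_mul_comm ha hb) φ) with h | ⟨i, -, h⟩
    · exact h (h0 a ha ha1)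
    · rw [← map_pow, ← map_mul] at h
      exact h (h0 _ (mul_mem (pow_mem ha i) hb) (hab i))
  have : Commute (π.rangeRestrict x) (π.rangeRestrict y) := hcyc.isMulCommutative.is_comm.comm _ _
  have h2 : Commute (π x) (π y) := this.map π.range.subtype
  rw [map_commutatorElement, commutatorElement_eq_one_iff_commute]
  exact h2

variable {R : Type u} [Ring R] [Algebra ℚ R] [Nontrivial R]

/-- Odd `p`-subgroups are abelian. -/
theorem Rk2.commute_of_odd (hR : Rk2 R) {P : Type v} [Group P] [Finite P] {p : ℕ}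
    [hp : Fact p.Prime] (hp2 : p ≠ 2) (hP : IsPGroup p P) (ρ : P →* R)
    (hρ : Function.Injective ρ) (x y : P) : Commute x y := by
  by_cases hcyc : IsCyclic P
  · exact hcyc.isMulCommutative.is_comm.comm _ _
  have hp0 := hp.out.ne_zero
  obtain ⟨A, hN, hA, hc⟩ := GT.PG.exists_normal_elementary_sq_of_odd hp2 hP hcyc
  obtain ⟨a, ha, b, hb, ha1, hab⟩ := exists_pair hp.out hA hc
  have := hA.1
  have hpow : ∀ w ∈ A, ρ w ^ p = 1 := fun w hw => by rw [← map_pow, hA.2 w hw, map_one]
  have hne : ∀ w : P, w ≠ 1 → ρ w ≠ 1 := fun w hw h => hw (hρ (by rw [h, map_one]))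
  obtain ⟨w, hw, hw1, hw0⟩ : ∃ w ∈ A, w ≠ 1 ∧ avg p (ρ w) ≠ 0 := by
    rcases exists_avg_ne_zero hp.out (hpow a ha) (Commute.map (setLike_mul_comm ha hb) ρ) with
      h | ⟨i, -, h⟩
    · exact ⟨a, ha, ha1, h⟩
    · rw [← map_pow, ← map_mul] at h
      exact ⟨_, mul_mem (pow_mem ha i) hb, hab i, h⟩
  set e := avg p (ρ w) with he
  have hei : IsIdempotentElem e := avg_idem hp0 (hpow w hw)
  have he1 : e ≠ 1 := avg_ne_one (hpow w hw) (hne w hw1)
  have e1 : ∀ g, ρ g * ρ g⁻¹ = 1 := fun g => by rw [← map_mul, mul_inv_cancel, map_one]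
  have e2 : ∀ g, ρ g⁻¹ * ρ g = 1 := fun g => by rw [← map_mul, inv_mul_cancel, map_one]
  have dich : ∀ g, ρ g * e * ρ g⁻¹ = e ∨ ρ g * e * ρ g⁻¹ = 1 - e := by
    intro g
    have hg : g * w * g⁻¹ ∈ A := hN.conj_mem w hw g
    have h1 : avg p (ρ (g * w * g⁻¹)) = ρ g * e * ρ g⁻¹ := by
      rw [map_mul, map_mul, avg_conj (e1 g) (e2 g)]
    have h2 : avg p (ρ (g * w * g⁻¹)) ≠ 0 := by
      rw [h1]
      intro h0
      apply hw0
      calc e = ρ g⁻¹ * (ρ g * e * ρ g⁻¹) * ρ g := by
            rw [← mul_assoc, ← mul_assoc, e2, one_mul, mul_assoc, e2, mul_one]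
        _ = 0 := by rw [h0, mul_zero, zero_mul]
    rcases hR.eq_or_add hei (avg_idem hp0 (hpow _ hg)) hw0 he1 h2
      (avg_ne_one (hpow _ hg) (hne _ (by simpa using hw1)))
      (commute_avg (commute_avg (Commute.map (setLike_mul_comm hg hw) ρ)).symm) with h | h
    · exact Or.inl (h1 ▸ h.symm)
    · exact Or.inr (h1 ▸ eq_sub_of_add_eq' h)
  have hsq : ∀ g, ρ (g * g) * e * ρ (g * g)⁻¹ = e := by
    intro g
    have : ρ (g * g) * e * ρ (g * g)⁻¹ = ρ g * (ρ g * e * ρ g⁻¹) * ρ g⁻¹ := by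
      rw [mul_inv_rev, map_mul, map_mul]
      simp only [mul_assoc]
    rw [this]
    rcases dich g with h | h
    · rw [h, h]
    · rw [h, mul_sub, sub_mul, mul_one, e1, h, sub_sub_cancel]
  have hcomm : ∀ g, Commute e (ρ g) := by
    intro g
    have hodd : Odd (Nat.card P) := by
      obtain ⟨n, hn⟩ := hP.exists_card_eq
      rw [hn]
      exact (hp.out.odd_of_ne_two hp2).pow
    obtain ⟨k, hk⟩ := hodd
    have h1 : g ^ (k + 1) * g ^ (k + 1) = g := by
      rw [← pow_add, show k + 1 + (k + 1) = (2 * k + 1) + 1 by ring, ← hk, pow_succ,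
        pow_card_eq_one', one_mul]
    have h2 := hsq (g ^ (k + 1))
    rw [h1] at h2
    unfold Commute SemiconjBy
    conv_lhs => rw [← h2]
    rw [mul_assoc, e2, mul_one]
  obtain ⟨E₁, _, _, π₁, h₁⟩ := hR.exists_corner hei hw0 he1 ρ hcomm
  obtain ⟨E₂, _, _, π₂, h₂⟩ := hR.exists_corner hei.one_sub (fun h => he1 (sub_eq_zero.1 h).symm)
    (by simpa using hw0) ρ (fun g => (Commute.one_left _).sub_left (hcomm g))
  have a1 := (h₁ _).1 (commutator_eq_one_of_divisionRing hp2 hP π₁ x y)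
  have a2 := (h₂ _).1 (commutator_eq_one_of_divisionRing hp2 hP π₂ x y)
  rw [sub_mul, a1, one_mul] at a2
  rw [← commutatorElement_eq_one_iff_commute]
  exact hρ (by rw [map_one]; exact sub_left_injective a2)

/-- A normal subgroup with simple quotient and without proper supplement is a 2-group. -/
theorem Rk2.isPGroup_two (hR : Rk2 R) {H : Type v} [Group H] [Finite H] [Group.IsPerfect H]
    (ρ : H →* R) (hρ : Function.Injective ρ) (M : Subgroup H) [M.Normal]
    (hM : ∀ K : Subgroup H, K ⊔ M = ⊤ → K = ⊤)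
    (hS : ∀ K : Subgroup H, K.Normal → K ≤ M ∨ K ⊔ M = ⊤) : IsPGroup 2 M := by
  refine IsPGroup.of_card (n := (Nat.card M).primeFactorsList.length)
    (Nat.eq_prime_pow_of_unique_prime_dvd Nat.card_pos.ne' fun {p} hp hd => ?_)
  by_contra hp2
  have : Fact p.Prime := ⟨hp⟩
  let P₀ : Sylow p M := default
  set P : Subgroup H := (P₀ : Subgroup M).map M.subtype with hPd
  have hPN : P.Normal := Subgroup.normalizer_eq_top_iff.1 (hM _ (Sylow.normalizer_sup_eq_top P₀))
  have hPp : IsPGroup p P := P₀.isPGroup'.map _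
  obtain ⟨Q, hQ⟩ := hPp.exists_le_sylow
  have hQc : ∀ x ∈ (Q : Subgroup H), ∀ y ∈ (Q : Subgroup H), Commute x y := fun x hx y hy =>
    (hR.commute_of_odd hp2 Q.isPGroup' (ρ.comp (Q : Subgroup H).subtype)
      (hρ.comp Subtype.val_injective) ⟨x, hx⟩ ⟨y, hy⟩).map (Q : Subgroup H).subtype
  have hQC : (Q : Subgroup H) ≤ Subgroup.centralizer P := fun x hx y hy => (hQc y (hQ hy) x hx).eq
  have hP : P = ⊥ := by
    rcases hS (Subgroup.centralizer (P : Set H)) inferInstance with h | h
    · have hQM : (Q : Subgroup H) ≤ M := hQC.trans h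
      have hQN : (Q : Subgroup H).Normal :=
        Subgroup.normalizer_eq_top_iff.1 (hM _ (Sylow.normalizer_sup_eq_top' Q hQM))
      obtain ⟨K, hK⟩ := Subgroup.exists_left_complement'_of_coprime (N := (Q : Subgroup H))
        Q.card_coprime_index
      have hK' : K = ⊤ := hM K (top_le_iff.1 (hK.sup_eq_top.ge.trans (sup_le_sup_left hQM K)))
      have := hK.disjoint
      rw [hK', top_disjoint] at this
      exact le_bot_iff.1 (this ▸ hQ)
    · have h1 := hM _ h
      have h2 := GT.Tr.sylow_inf_commutator_inf_center_le Q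
      have h3 : ⁅(Q : Subgroup H), (Q : Subgroup H)⁆ = ⊥ := by
        rw [Subgroup.commutator_eq_bot_iff_le_centralizer]
        exact fun x hx y hy => (hQc y hy x hx).eq
      rw [h3] at h2
      refine le_bot_iff.1 (le_trans (le_inf (le_inf hQ (by simp)) fun x hx => ?_) h2)
      rw [Subgroup.mem_center_iff]
      intro g
      have : g ∈ Subgroup.centralizer (P : Set H) := h1 ▸ Subgroup.mem_top g
      exact (this x hx).symm
  have h1 : (P₀ : Subgroup M) = ⊥ := (Subgroup.map_eq_bot_iff_of_injective _ M.subtype_injective).1 hP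
  have h2 := P₀.ne_bot_of_dvd_card hd
  exact h2 h1

end Cfsg.Agent.GL2D
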