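import Cfsg.Agent.GL2D.SL
import Cfsg.Agent.GL2D.Odd
import Cfsg.Agent.Ch.UniversalCover

/-!
The non-central case of the reduction for S3259: anticommuting reflections form cliques of size at
most five.
-/

set_option autoImplicit false

namespace Cfsg.Agent.GL2D

open scoped commutatorElement

universe u v

theorem card_range_le_sixty {H Ω : Type*} [Group H] [Group.IsPerfect H] [Fintype Ω]
    [DecidableEq Ω] (h5 : Fintype.card Ω ≤ 5) (φ : H →* Equiv.Perm Ω) :
    Nat.card φ.range ≤ 60 := by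
  have h1 : Nat.card (Equiv.Perm Ω) ≤ 120 := by
    rw [Nat.card_eq_fintype_card, Fintype.card_perm]
    exact Nat.factorial_le h5
  rcases subsingleton_or_nontrivial Ω with h | h
  · have : Nat.card (Equiv.Perm Ω) = 1 := Nat.card_unique
    have h2 := Subgroup.card_le_card_group φ.range
    omega
  · have h2 : φ.range ≤ alternatingGroup Ω := by
      rintro _ ⟨g, rfl⟩
      have : commutator H ≤ (Equiv.Perm.sign.comp φ).ker :=
        Abelianization.commutator_subset_ker _
      exact this (Group.IsPerfect.mem_commutator (g := g))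
    have h3 := Subgroup.card_le_of_le h2
    have h4 := two_mul_nat_card_alternatingGroup (α := Ω)
    omega

theorem clique {H : Type*} [Group H] [Finite H] [Group.IsPerfect H] (M : Subgroup H)
    (hM : ∀ K : Subgroup H, K ⊔ M = ⊤ → K = ⊤)
    (hS : ∀ K : Subgroup H, K.Normal → K ≤ M ∨ K ⊔ M = ⊤) (X : Set H)
    (hX : ∀ x ∈ X, ∀ h, h * x * h⁻¹ ∈ X)
    (h6 : ∀ x : Fin 6 → H, (∀ i, x i ∈ X) → ∃ i j, i ≠ j ∧ (x i)⁻¹ * x j ∈ Subgroup.center H) :
    M.index ≤ 60 ∨ ∀ x ∈ X, x ∈ Subgroup.center H := by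
  classical
  let Ω : Set (H ⧸ Subgroup.center H) := (QuotientGroup.mk' (Subgroup.center H)) '' X
  have hΩ : ∀ h : H, ∀ y ∈ Ω, MulAut.conj (h : H ⧸ Subgroup.center H) y ∈ Ω := by
    rintro h _ ⟨x, hx, rfl⟩
    exact ⟨h * x * h⁻¹, hX x hx h, by simp⟩
  have hΩ' : ∀ h : H, ∀ y, MulAut.conj (h : H ⧸ Subgroup.center H) y ∈ Ω ↔ y ∈ Ω := by
    intro h y
    refine ⟨fun hy => ?_, hΩ h y⟩
    have := hΩ h⁻¹ _ hy
    simpa [mul_assoc] using this
  let φ : H →* Equiv.Perm Ω :=
    { toFun := fun h => Equiv.Perm.subtypePerm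
        (MulAut.conj (h : H ⧸ Subgroup.center H)).toEquiv (hΩ' h)
      map_one' := by ext y; simp
      map_mul' := fun a b => by
        ext y
        change MulAut.conj ((a * b : H) : H ⧸ Subgroup.center H) y.1
          = MulAut.conj (a : H ⧸ Subgroup.center H) (MulAut.conj (b : H ⧸ Subgroup.center H) y.1)
        simp [mul_assoc] }
  have := Fintype.ofFinite Ω
  have h5 : Fintype.card Ω ≤ 5 := by
    by_contra hn
    obtain ⟨f⟩ : Nonempty (Fin 6 ↪ Ω) :=
      Function.Embedding.nonempty_of_card_le (by rw [Fintype.card_fin]; omega)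
    choose x hx hx' using fun i => (f i).2
    obtain ⟨i, j, hij, h⟩ := h6 x hx
    apply hij
    apply f.injective
    apply Subtype.ext
    rw [← hx', ← hx']
    exact QuotientGroup.eq.2 h
  rcases hS φ.ker inferInstance with h | h
  · left
    have h1 := card_range_le_sixty h5 φ
    rw [← Subgroup.index_ker] at h1
    exact (Nat.le_of_dvd (Nat.pos_of_ne_zero Subgroup.index_ne_zero_of_finite)
      (Subgroup.index_dvd_of_le h)).trans h1
  · right
    have h1 := hM _ h
    intro x hx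
    refine Ch.mem_center_of_isPerfect fun g => ?_
    have h2 : φ g = 1 := (show g ∈ φ.ker from h1 ▸ Subgroup.mem_top g)
    have h3 := congrArg (fun σ : Equiv.Perm Ω => (σ ⟨_, x, hx, rfl⟩).1) h2
    rw [← QuotientGroup.eq_one_iff]
    simp only [φ, MonoidHom.coe_mk, OneHom.coe_mk, Equiv.Perm.subtypePerm_apply,
      MulEquiv.toEquiv_eq_coe, EquivLike.coe_coe, MulAut.conj_apply, QuotientGroup.mk'_apply,
      Equiv.Perm.coe_one, id_eq] at h3
    rw [commutatorElement_def, QuotientGroup.mk_mul, QuotientGroup.mk_mul, QuotientGroup.mk_mul,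
      QuotientGroup.mk_inv, QuotientGroup.mk_inv, h3, mul_inv_cancel]

section ring
variable {R : Type u} [Ring R] [Algebra ℚ R] [Nontrivial R]

omit [Nontrivial R] in
theorem eq_zero_of_eq_neg {x : R} (h : x = -x) : x = 0 := by
  have h2 : (2 : ℚ) • x = 0 := by
    rw [two_smul]
    exact add_eq_zero_iff_eq_neg.2 h
  exact (smul_eq_zero.1 h2).resolve_left two_ne_zero

omit [Algebra ℚ R] [Nontrivial R] in
theorem anti_assoc {a b : R} (h : a * b = -(b * a)) (c : R) : a * (b * c) = -(b * (a * c)) := by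
  rw [← mul_assoc, h, neg_mul, mul_assoc]

omit [Algebra ℚ R] [Nontrivial R] in
theorem sq_assoc {a : R} (h : a * a = 1) (c : R) : a * (a * c) = c := by
  rw [← mul_assoc, h, one_mul]

omit [Algebra ℚ R] [Nontrivial R] in
theorem sq_assoc' {a : R} (h : a * a = -1) (c : R) : a * (a * c) = -c := by
  rw [← mul_assoc, h, neg_one_mul]

theorem ne_of_anti {a b : R} (ha : a * a = 1) (h : a * b = -(b * a)) (hb : b = 1 ∨ b = -1) :
    False := by
  have h0 : a = 0 := by
    rcases hb with rfl | rfl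
    · exact eq_zero_of_eq_neg (by simpa using h)
    · exact eq_zero_of_eq_neg (by simpa using h.symm)
  rw [h0, mul_zero] at ha
  exact zero_ne_one ha

/-- No six pairwise anticommuting involutions. -/
theorem Rk2.no_six (hR : Rk2 R) (s : Fin 6 → R) (hs : ∀ i, s i * s i = 1)
    (ha : ∀ i j, i ≠ j → s i * s j = -(s j * s i)) : False := by
  set u := s 0 * (s 1 * (s 2 * s 3)) with hu
  have r10 := ha 1 0 (by decide)
  have r20 := ha 2 0 (by decide)
  have r30 := ha 3 0 (by decide)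
  have r21 := ha 2 1 (by decide)
  have r31 := ha 3 1 (by decide)
  have r32 := ha 3 2 (by decide)
  have huu : u * u = 1 := by
    simp only [hu, mul_assoc, anti_assoc r10, anti_assoc r20, anti_assoc r30, anti_assoc r21,
      anti_assoc r31, anti_assoc r32, sq_assoc (hs _), hs, mul_neg, neg_neg]
  have hu0 : s 0 * u = -(u * s 0) := by
    simp only [hu, mul_assoc, r30, anti_assoc r10, anti_assoc r20, sq_assoc (hs _), mul_neg,
      neg_neg]
  have hc : ∀ i, i ≠ 0 → i ≠ 1 → i ≠ 2 → i ≠ 3 → s i = u ∨ s i = -u := by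
    intro i h0 h1 h2 h3
    refine hR.inv_comm (hs i) huu ?_ (fun h => ne_of_anti (hs 0) (ha 0 i h0.symm) (Or.inl h))
      (fun h => ne_of_anti (hs 0) (ha 0 i h0.symm) (Or.inr h))
      (fun h => ne_of_anti (hs 0) hu0 (Or.inl h)) (fun h => ne_of_anti (hs 0) hu0 (Or.inr h))
    unfold Commute SemiconjBy
    simp only [hu, mul_assoc, anti_assoc (ha i 0 h0), anti_assoc (ha i 1 h1),
      anti_assoc (ha i 2 h2), ha i 3 h3, mul_neg, neg_neg]
  have h45 := ha 4 5 (by decide)
  have h1 : (1 : R) = -1 := by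
    rcases hc 4 (by decide) (by decide) (by decide) (by decide) with h | h <;>
    rcases hc 5 (by decide) (by decide) (by decide) (by decide) with h' | h' <;>
    rw [h, h'] at h45 <;> simp only [mul_neg, neg_mul, neg_neg, huu] at h45
    · exact h45
    · exact h45.symm
    · exact h45.symm
    · exact h45
  exact one_ne_zero (eq_zero_of_eq_neg h1)

omit [Algebra ℚ R] [Nontrivial R] in
theorem triple_sq {a b c : R} (ha : a * a = -1) (hb : b * b = -1) (hc : c * c = -1)
    (r1 : b * a = -(a * b)) (r2 : c * a = -(a * c)) (r3 : c * b = -(b * c)) :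
    a * (b * c) * (a * (b * c)) = 1 := by
  simp only [mul_assoc, anti_assoc r1, anti_assoc r2, anti_assoc r3, sq_assoc' ha, sq_assoc' hb,
    hc, mul_neg, neg_neg]

/-- The reduction: either the simple quotient has order at most 60, or the group is quasisimple
with a 2-group as centre. -/
theorem Rk2.reduce (hR : Rk2 R) {H : Type v} [Group H] [Finite H] [Group.IsPerfect H]
    {ρ : H →* R} (hρ : Function.Injective ρ) (hi : Irr ρ) (M : Subgroup H) [hMN : M.Normal]
    (hM : ∀ K : Subgroup H, K ⊔ M = ⊤ → K = ⊤)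
    (hS : ∀ K : Subgroup H, K.Normal → K ≤ M ∨ K ⊔ M = ⊤) :
    M.index ≤ 60 ∨ M ≤ Subgroup.center H := by
  by_contra hn
  push Not at hn
  obtain ⟨h60, hMZ⟩ := hn
  have h2 := hR.isPGroup_two ρ hρ M hM hS
  set Z := Subgroup.center H with hZ
  let E : Subgroup H :=
    { carrier := {x | x ∈ M ∧ (x : H ⧸ Z) ^ 2 = 1 ∧ ∀ m ∈ M, Commute (x : H ⧸ Z) (m : H ⧸ Z)}
      mul_mem' := by
        rintro x y ⟨h1, h2, h3⟩ ⟨k1, k2, k3⟩
        refine ⟨mul_mem h1 k1, ?_, fun m hm => ?_⟩
        · rw [QuotientGroup.mk_mul, (h3 y k1).mul_pow, h2, k2, one_mul]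
        · rw [QuotientGroup.mk_mul]
          exact (h3 m hm).mul_left (k3 m hm)
      one_mem' := ⟨one_mem _, by simp, fun m _ => by simp⟩
      inv_mem' := by
        rintro x ⟨h1, h2, h3⟩
        refine ⟨inv_mem h1, ?_, fun m hm => ?_⟩
        · rw [QuotientGroup.mk_inv, inv_pow, h2, inv_one]
        · rw [QuotientGroup.mk_inv]
          exact (h3 m hm).inv_left }
  have hEc : ∀ x ∈ E, ∀ h, h * x * h⁻¹ ∈ E := by
    rintro x ⟨h1, h2, h3⟩ h
    refine ⟨hMN.conj_mem x h1 h, ?_, fun m hm => ?_⟩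
    · rw [QuotientGroup.mk_mul, QuotientGroup.mk_mul, QuotientGroup.mk_inv, conj_pow, h2]
      simp
    · have := h3 (h⁻¹ * m * h) (by simpa using hMN.conj_mem m hm h⁻¹)
      simp only [QuotientGroup.mk_mul, QuotientGroup.mk_inv] at this ⊢
      have h4 := this.map (MulAut.conj (h : H ⧸ Z))
      simpa [mul_assoc] using h4
  have hE2 : ∀ x ∈ E, x * x ∈ Z := fun x hx => by
    rw [← QuotientGroup.eq_one_iff, QuotientGroup.mk_mul, ← sq]
    exact hx.2.1
  have hZρ : ∀ x : H, (ρ x = 1 ∨ ρ x = -1) → x ∈ Z := by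
    intro x hx
    rw [hZ, Subgroup.mem_center_iff]
    intro g
    apply hρ
    rw [map_mul, map_mul]
    rcases hx with h | h <;> simp [h]
  have hpm : ∀ x ∈ E, ∀ y ∈ E, ρ x * ρ y = ρ y * ρ x ∨ ρ x * ρ y = -(ρ y * ρ x) := by
    intro x hx y hy
    have hc : ⁅x, y⁆ ∈ Z := by
      rw [← QuotientGroup.eq_one_iff]
      have := hx.2.2 y hy.1
      rw [← commutatorElement_eq_one_iff_commute] at this
      exact this
    have hc' := Subgroup.mem_center_iff.1 hc
    have hxy : x * y = ⁅x, y⁆ * (y * x) := by rw [commutatorElement_def]; group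
    have hcc : ⁅x, y⁆ * ⁅x, y⁆ = 1 := by
      have h1 : x * x * y = ⁅x, y⁆ * ⁅x, y⁆ * (y * (x * x)) := by
        calc x * x * y = x * (x * y) := mul_assoc _ _ _
          _ = x * (⁅x, y⁆ * (y * x)) := by rw [← hxy]
          _ = ⁅x, y⁆ * (x * y) * x := by rw [← mul_assoc, hc' x]; simp only [mul_assoc]
          _ = ⁅x, y⁆ * (⁅x, y⁆ * (y * x)) * x := by rw [← hxy]
          _ = _ := by simp only [mul_assoc]
      rw [Subgroup.mem_center_iff.1 (hE2 x hx) y] at h1
      exact (mul_eq_right.1 h1.symm)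
    rw [← map_mul, ← map_mul, hxy, map_mul ρ ⁅x, y⁆]
    rcases hi.eq_or hcc (fun g => (hc' g).symm) with h | h <;> simp [h]
  have hinv : ∀ x : H, ρ x⁻¹ * ρ x = 1 := fun x => by rw [← map_mul, inv_mul_cancel, map_one]
  have hX2 : ∀ x ∈ E, ρ x * ρ x = 1 → x ∈ Z := by
    rcases clique M hM hS {x | x ∈ E ∧ ρ x * ρ x = 1 ∧ x ∉ Z} (by
      rintro x ⟨h1, h2, h3⟩ h
      refine ⟨hEc x h1 h, ?_, fun h4 => h3 ?_⟩
      · rw [← map_mul] at h2 ⊢
        rw [conj_mul, hρ (h2.trans (map_one ρ).symm)]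
        simp
      · have := (inferInstance : Z.Normal).conj_mem _ h4 h⁻¹
        simpa [mul_assoc] using this) (by
      intro x hx
      by_contra hc
      push Not at hc
      refine hR.no_six (fun i => ρ (x i)) (fun i => (hx i).2.1) fun i j hij => ?_
      refine (hpm _ (hx i).1 _ (hx j).1).resolve_left fun h => hc i j hij (hZρ _ ?_)
      rcases hR.inv_comm (hx i).2.1 (hx j).2.1 h (fun h => (hx i).2.2 (hZρ _ (Or.inl h)))
        (fun h => (hx i).2.2 (hZρ _ (Or.inr h))) (fun h => (hx j).2.2 (hZρ _ (Or.inl h)))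
        (fun h => (hx j).2.2 (hZρ _ (Or.inr h))) with h1 | h1
      · left
        rw [map_mul, ← h1, hinv]
      · right
        rw [map_mul, ← neg_neg (ρ (x j)), ← h1, mul_neg, hinv]) with h | h
    · omega
    · intro x hx h1
      by_contra h3
      exact h3 (h x ⟨hx, h1, h3⟩)
  have hX4 : ∀ x ∈ E, ρ x * ρ x = -1 → x ∈ Z := by
    rcases clique M hM hS {x | x ∈ E ∧ ρ x * ρ x = -1} (by
      rintro x ⟨h1, h2⟩ h
      refine ⟨hEc x h1 h, ?_⟩
      rw [← map_mul] at h2 ⊢
      rw [conj_mul, Subgroup.mem_center_iff.1 (hE2 x h1) h, mul_inv_cancel_right, h2]) (by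
      intro x hx
      by_contra hc
      push Not at hc
      have anti : ∀ i j, i ≠ j → ρ (x i) * ρ (x j) = -(ρ (x j) * ρ (x i)) := by
        intro i j hij
        refine (hpm _ (hx i).1 _ (hx j).1).resolve_left fun h => hc i j hij ?_
        have h1 : x i * x j ∈ Z := hX2 _ (mul_mem (hx i).1 (hx j).1) (by
          rw [map_mul, mul_assoc, ← mul_assoc (ρ (x j)), ← h, mul_assoc, (hx j).2, ← mul_assoc,
            (hx i).2]
          simp)
        have h2 : (x i)⁻¹ * x j = (x i * x i)⁻¹ * (x i * x j) := by group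
        rw [h2]
        exact mul_mem (inv_mem (hE2 _ (hx i).1)) h1
      have tri : ∀ i, i ≠ 0 → i ≠ 1 → x 0 * (x 1 * x i) ∈ Z := fun i h0 h1 =>
        hX2 _ (mul_mem (hx 0).1 (mul_mem (hx 1).1 (hx i).1)) (by
          rw [map_mul, map_mul]
          exact triple_sq (hx 0).2 (hx 1).2 (hx i).2 (anti 1 0 (by decide)) (anti i 0 h0)
            (anti i 1 h1))
      refine hc 2 3 (by decide) ?_
      have h2 : (x 2)⁻¹ * x 3 = (x 0 * (x 1 * x 2))⁻¹ * (x 0 * (x 1 * x 3)) := by group
      rw [h2]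
      exact mul_mem (inv_mem (tri 2 (by decide) (by decide))) (tri 3 (by decide) (by decide)))
      with h | h
    · omega
    · exact fun x hx h1 => h x ⟨hx, h1⟩
  have hEZ : ∀ x ∈ E, x ∈ Z := by
    intro x hx
    refine Ch.mem_center_of_isPerfect fun h => ?_
    have hx' := hEc x hx h
    have hy : ⁅h, x⁆ ∈ E := mul_mem hx' (inv_mem hx)
    have h1 : ρ (h * x * h⁻¹) * ρ (h * x * h⁻¹) * (ρ x⁻¹ * ρ x⁻¹) = 1 := by
      rw [← map_mul, ← map_mul, ← map_mul, conj_mul, Subgroup.mem_center_iff.1 (hE2 x hx) h,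
        mul_inv_cancel_right, ← map_one ρ]
      congr 1
      group
    have h3 : ρ ⁅h, x⁆ = ρ (h * x * h⁻¹) * ρ x⁻¹ := by rw [← map_mul]; rfl
    rcases hpm _ (inv_mem hx) _ hx' with h4 | h4
    · refine hX2 _ hy ?_
      rw [h3, mul_assoc, ← mul_assoc (ρ x⁻¹), h4, ← h1]
      simp only [mul_assoc]
    · refine hX4 _ hy ?_
      rw [h3, mul_assoc, ← mul_assoc (ρ x⁻¹), h4, ← h1]
      simp only [mul_assoc, neg_mul, mul_neg]
  -- a non-central element of `E`
  let M' := M.map (QuotientGroup.mk' Z)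
  have hM' : IsPGroup 2 M' := h2.map _
  have : Nontrivial M' := by
    obtain ⟨m, hm, hm'⟩ := SetLike.not_le_iff_exists.1 hMZ
    exact ⟨⟨⟨_, m, hm, rfl⟩, 1, fun h => hm' ((QuotientGroup.eq_one_iff m).1
      (congrArg Subtype.val h))⟩⟩
  have hc := hM'.center_nontrivial
  obtain ⟨n, hn0, hn⟩ := (IsPGroup.nontrivial_iff_card (hM'.to_subgroup (Subgroup.center M'))).1 hc
  obtain ⟨y, hy⟩ := exists_prime_orderOf_dvd_card' (G := Subgroup.center M') 2
    (hn ▸ dvd_pow_self 2 hn0.ne')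
  obtain ⟨⟨⟨_, x, hx, rfl⟩, hxc⟩, rfl⟩ : ∃ z : Subgroup.center M', z = y := ⟨y, rfl⟩
  have hxE : x ∈ E := by
    refine ⟨hx, ?_, fun m hm => ?_⟩
    · have := pow_orderOf_eq_one (⟨⟨_, x, hx, rfl⟩, hxc⟩ : Subgroup.center M')
      rw [hy] at this
      exact congrArg (fun z => z.1.1) this
    · have := Subgroup.mem_center_iff.1 hxc ⟨_, m, hm, rfl⟩
      exact (congrArg Subtype.val this).symm
  have h1 : (⟨⟨_, x, hx, rfl⟩, hxc⟩ : Subgroup.center M') = 1 :=
    Subtype.ext (Subtype.ext ((QuotientGroup.eq_one_iff x).2 (hEZ x hxE)))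
  rw [h1, orderOf_one] at hy
  omega

end ring

end Cfsg.Agent.GL2D
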