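import Mathlib
import Cfsg.Agent.S4291
import Cfsg.Agent.S4293

/-!
A finite subgroup of a division ring in which a quaternion subgroup is rotated.
-/

set_option autoImplicit false

namespace Cfsg.Agent.GL2D

open Subgroup

theorem sq_of_four {Y : Type*} [Group Y] (P : Subgroup Y) (h : ∀ y ∈ P, y ^ 4 = 1 → y ^ 2 = 1) :
    ∀ (k : ℕ), ∀ y ∈ P, y ^ 2 ^ k = 1 → y ^ 2 = 1 := by
  intro k
  induction k with
  | zero => intro y _ hy; simp_all
  | succ k ih =>
    intro y hy e
    refine h y hy ?_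
    have := ih (y ^ 2) (pow_mem hy 2) (by rw [← pow_mul, ← pow_succ', e])
    rwa [← pow_mul] at this

theorem alt_four4 : ∀ y : Equiv.Perm (Fin 4), Equiv.Perm.sign y = 1 → y ^ 4 = 1 → y ^ 2 = 1 := by
  decide +kernel

theorem alt_four5 : ∀ y : Equiv.Perm (Fin 5), Equiv.Perm.sign y = 1 → y ^ 4 = 1 → y ^ 2 = 1 := by
  decide +kernel

theorem exists_plus {F : Type*} [Group F] {N : Subgroup F}
    (h : N = ⊤ ∨ (∃ f : F →* DihedralGroup 2, Function.Surjective f ∧ f.ker = N) ∨
      (∃ f : F →* alternatingGroup (Fin 4), Function.Surjective f ∧ f.ker = N) ∨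
      (∃ f : F →* Equiv.Perm (Fin 4), Function.Surjective f ∧ f.ker = N) ∨
      (∃ f : F →* alternatingGroup (Fin 5), Function.Surjective f ∧ f.ker = N) ∨
      (∃ f : F →* Equiv.Perm (Fin 5), Function.Surjective f ∧ f.ker = N)) :
    ∃ P : Subgroup F, P.Normal ∧ (∀ c, c * c ∈ P) ∧
      ∀ n ∈ P, ∀ k : ℕ, n ^ 2 ^ k = 1 → n ^ 2 ∈ N := by
  have key : ∀ {Y : Type} [Group Y] (f : F →* Y) (Q : Subgroup Y), Q.Normal → (∀ c, c * c ∈ Q) →
      (∀ y ∈ Q, y ^ 4 = 1 → y ^ 2 = 1) → ∃ P : Subgroup F, P.Normal ∧ (∀ c, c * c ∈ P) ∧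
      ∀ n ∈ P, ∀ k : ℕ, n ^ 2 ^ k = 1 → n ^ 2 ∈ f.ker := fun f Q h1 h2 h3 =>
    ⟨Q.comap f, h1.comap f, fun c => by simpa using h2 (f c), fun n hn k e => by
      rw [MonoidHom.mem_ker, map_pow]
      exact sq_of_four Q h3 k _ hn (by rw [← map_pow, e, map_one])⟩
  have sq : ∀ {n : ℕ} (c : Equiv.Perm (Fin n)), c * c ∈ alternatingGroup (Fin n) := fun c => by
    simp [Equiv.Perm.mem_alternatingGroup]
  rcases h with rfl | ⟨f, -, rfl⟩ | ⟨f, -, rfl⟩ | ⟨f, -, rfl⟩ | ⟨f, -, rfl⟩ | ⟨f, -, rfl⟩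
  · exact ⟨⊤, inferInstance, fun _ => mem_top _, fun _ _ _ _ => mem_top _⟩
  · exact key f ⊤ inferInstance (fun _ => mem_top _) fun y _ _ =>
      (by decide : ∀ y : DihedralGroup 2, y ^ 2 = 1) y
  · exact key f ⊤ inferInstance (fun _ => mem_top _) fun y _ e =>
      Subtype.ext (alt_four4 y.1 y.2 (congrArg Subtype.val e))
  · exact key f _ inferInstance sq fun y hy e => alt_four4 y hy e
  · exact key f ⊤ inferInstance (fun _ => mem_top _) fun y _ e =>
      Subtype.ext (alt_four5 y.1 y.2 (congrArg Subtype.val e))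
  · exact key f _ inferInstance sq fun y hy e => alt_four5 y hy e

theorem eq_or_neg_of_sq {E : Type*} [DivisionRing E] {u v : E} (h : Commute u v)
    (e : u * u = v * v) : u = v ∨ u = -v := by
  have : (u - v) * (u + v) = 0 := by rw [sub_mul, mul_add, mul_add, e, h.eq]; abel
  rcases mul_eq_zero.1 this with h | h
  · exact Or.inl (sub_eq_zero.1 h)
  · exact Or.inr (eq_neg_of_add_eq_zero_left h)

/-- A finite group mapped to the units of a division ring. -/
theorem exists_plus_of_hom {E : Type*} [DivisionRing E] [CharZero E] {C : Type*} [Group C]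
    [Finite C] (π : C →* Eˣ) {ζ : C} (hζ : π ζ = -1) :
    ∃ P : Subgroup C, P.Normal ∧ (∀ c, c * c ∈ P) ∧ ∀ a b g : C, π a * π a = -1 → π b * π b = -1 →
      π a * π b = -(π b * π a) → (π (g * a * g⁻¹) = π b ∨ π (g * a * g⁻¹) = -π b) →
      (π (g * b * g⁻¹) = π (a * b) ∨ π (g * b * g⁻¹) = -π (a * b)) →
      ∀ n ∈ P, ∀ k : ℕ, n ^ 2 ^ k = 1 → π n ^ 4 = 1 := by
  have hm : (-1 : Eˣ) ≠ 1 := fun h => by
    have := congrArg Units.val h
    simp only [Units.val_neg, Units.val_one] at this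
    exact (by norm_num : (-1 : E) ≠ 1) this
  have : Finite π.range := Finite.of_surjective _ π.rangeRestrict_surjective
  have hne : π.range ≠ ⊥ := fun h => hm (by
    rw [← hζ]; exact mem_bot.1 (h ▸ ⟨ζ, rfl⟩ : π ζ ∈ (⊥ : Subgroup Eˣ)))
  obtain ⟨N0, ⟨hN0, hcyc, hl⟩, -⟩ := S4291.result (S4293.result π.range hne)
  obtain ⟨P, p1, p2, p3⟩ := exists_plus hl
  let f := π.rangeRestrict
  have hf : ∀ c, (f c : Eˣ) = π c := fun c => rfl
  refine ⟨P.comap f, p1.comap f, fun c => by simpa using p2 (f c),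
    fun a b g ha hb hab hga hgb n hn k hk => ?_⟩
  have hn2 := p3 (f n) hn k (by rw [← map_pow, hk, map_one])
  suffices ∀ c ∈ N0, ∀ k : ℕ, c ^ 2 ^ k = 1 → c ^ 2 = 1 by
    have := this _ hn2 k (by rw [← pow_mul, mul_comm, pow_mul, ← map_pow, hk]; simp)
    rw [← pow_mul] at this
    exact congrArg Subtype.val this
  intro c hc k
  refine sq_of_four N0 (fun c hc h4 => ?_) k c hc
  by_contra h2
  have : Fact (Nat.Prime 2) := ⟨Nat.prime_two⟩
  -- a Sylow subgroup containing `a` and `b`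
  have hz : ∀ y : π.range, Commute (f ζ) y := fun y => Subtype.ext (by
    simp [hf, hζ])
  have hz2 : f ζ * f ζ = 1 := Subtype.ext (by simp [hf, hζ])
  have ha' : f a * f a = f ζ := Subtype.ext (by simp [hf, hζ, ha])
  have hb' : f b * f b = f ζ := Subtype.ext (by simp [hf, hζ, hb])
  have hab' : f a * f b = f b * f a * f ζ := Subtype.ext (by simp [hf, hζ, hab])
  have hnorm : zpowers (f b) ≤ normalizer (zpowers (f a) : Set π.range) := by
    rw [zpowers_le]
    refine mem_normalizer_fintype ?_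
    rintro _ ⟨j, rfl⟩
    rw [← conj_zpow]
    refine zpow_mem ?_ j
    have : f b * f a * (f b)⁻¹ = f a * (f a * f a) := by
      rw [ha', mul_inv_eq_iff_eq_mul, mul_assoc, (hz _).eq, ← mul_assoc, hab', mul_assoc _ (f ζ),
        hz2, mul_one]
    rw [this]
    exact mul_mem (mem_zpowers _) (mul_mem (mem_zpowers _) (mem_zpowers _))
  have pz : ∀ y : π.range, y ^ 4 = 1 → IsPGroup 2 (zpowers y) := fun y hy =>
    IsPGroup.of_card_dvd_pow (n := 2) (by
      rw [Nat.card_zpowers]; exact orderOf_dvd_of_pow_eq_one hy)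
  have a4 : ∀ y : π.range, y * y = f ζ → y ^ 4 = 1 := fun y hy => by
    rw [show y ^ 4 = y * y * (y * y) by simp [pow_succ, mul_assoc], hy, hz2]
  obtain ⟨S, hS⟩ := (IsPGroup.to_sup_of_normal_left' (pz _ (a4 _ ha')) (pz _ (a4 _ hb'))
    hnorm).exists_le_sylow
  have haS : f a ∈ (S : Subgroup _) := hS (mem_sup_left (mem_zpowers _))
  have hbS : f b ∈ (S : Subgroup _) := hS (mem_sup_right (mem_zpowers _))
  obtain ⟨S', hS'⟩ := (pz c h4).exists_le_sylow
  obtain ⟨d, rfl⟩ := MulAction.exists_smul_eq π.range S S'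
  have hc' : d⁻¹ * c * d ∈ (S : Subgroup _) := by
    have := hS' (mem_zpowers c)
    rw [Sylow.coe_subgroup_smul, Subgroup.mem_pointwise_smul_iff_inv_smul_mem] at this
    simpa using this
  have hcN : d⁻¹ * c * d ∈ N0 := by simpa using hN0.conj_mem c hc d⁻¹
  have h4' : (d⁻¹ * c * d) ^ 4 = 1 := by
    have := conj_pow (a := d⁻¹) (b := c) (i := 4)
    rw [inv_inv] at this
    rw [this, h4]; simp
  have h2' : (d⁻¹ * c * d) ^ 2 ≠ 1 := by
    have := conj_pow (a := d⁻¹) (b := c) (i := 2)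
    rw [inv_inv] at this
    rw [this]
    intro e
    apply h2
    have := congrArg (fun y => d * y * d⁻¹) e
    simpa [mul_assoc] using this
  generalize d⁻¹ * c * d = c at hc' hcN h4' h2'
  have comm : ∀ x ∈ (S : Subgroup _), x ∈ N0 → ∀ y ∈ (S : Subgroup _), y ∈ N0 → Commute x y := by
    intro x hx hx' y hy hy'
    obtain ⟨Q, hQ⟩ := (S.isPGroup'.comap_subtype (K := N0)).exists_le_sylow
    have := hcyc 2 Q
    have h := mul_comm' (⟨⟨x, hx'⟩, hQ hx⟩ : (Q : Subgroup N0)) ⟨⟨y, hy'⟩, hQ hy⟩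
    exact congrArg (fun v => v.1.1) h
  have hcc : c * c = f ζ := by
    have h1 : ((c : Eˣ) : E) * (c : Eˣ) * (((c : Eˣ) : E) * (c : Eˣ)) = 1 := by
      have := congrArg (fun y : π.range => ((y : Eˣ) : E)) h4'
      simpa [pow_succ, mul_assoc] using this
    rcases mul_self_eq_one_iff.1 h1 with h | h
    · exact absurd (Subtype.ext (Units.ext (by simpa [pow_two] using h))) h2'
    · exact Subtype.ext (Units.ext (by simpa [hf, hζ] using h))
  have hζN : f ζ ∈ N0 := hcc ▸ mul_mem hcN hcN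
  have sgn : ∀ x y : π.range, Commute x y → x * x = y * y → x = y ∨ x = y * f ζ := by
    intro x y h1 h2
    have h3 : Commute ((x : Eˣ) : E) (y : Eˣ) :=
      congrArg (fun v : π.range => ((v : Eˣ) : E)) h1.eq
    rcases eq_or_neg_of_sq h3 (congrArg (fun v : π.range => ((v : Eˣ) : E)) h2) with h | h
    · exact Or.inl (Subtype.ext (Units.ext h))
    · exact Or.inr (Subtype.ext (Units.ext (by simpa [hf, hζ] using h)))
  have mem : ∀ x : π.range, x * x = f ζ → Commute x c → x ∈ N0 := fun x h1 h2 => by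
    rcases sgn x c h2 (h1.trans hcc.symm) with h | h
    · exact h ▸ hcN
    · exact h ▸ mul_mem hcN hζN
  have act : ∀ s ∈ (S : Subgroup _), s * c = c * s ∨ s * c = c * s * f ζ := fun s hs => by
    have h1 := comm _ (mul_mem (mul_mem hs hc') (inv_mem hs)) (hN0.conj_mem c hcN s) c hc' hcN
    rcases sgn _ c h1 (by
      rw [show s * c * s⁻¹ * (s * c * s⁻¹) = s * (c * c) * s⁻¹ by group, hcc, ← (hz s).eq,
        mul_inv_cancel_right]) with h | h
    · exact Or.inl (mul_inv_eq_iff_eq_mul.1 h)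
    · right; rw [mul_inv_eq_iff_eq_mul.1 h, mul_assoc, (hz s).eq, mul_assoc]
  have lift : ∀ x y : C, (π x = π y ∨ π x = -π y) → (f x ∈ N0 ↔ f y ∈ N0) := fun x y h => by
    rcases h with h | h
    · rw [show f x = f y from Subtype.ext h]
    · rw [show f x = f y * f ζ from Subtype.ext (by simp [hf, hζ, h]), mul_mem_cancel_right hζN]
  have cj : ∀ x : C, f (g * x * g⁻¹) ∈ N0 ↔ f x ∈ N0 := fun x => by
    rw [map_mul, map_mul, map_inv]
    exact ⟨fun h => by simpa [mul_assoc] using hN0.conj_mem _ h (f g)⁻¹, fun h => hN0.conj_mem _ h _⟩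
  have i1 : f a ∈ N0 ↔ f b ∈ N0 := (cj a).symm.trans (lift _ _ hga)
  have i2 : f b ∈ N0 ↔ f (a * b) ∈ N0 := (cj b).symm.trans (lift _ _ hgb)
  have haN : f a ∈ N0 := by
    rcases act _ haS with h1 | h1
    · exact mem _ ha' h1
    rcases act _ hbS with h2 | h2
    · exact i1.2 (mem _ hb' h2)
    refine i1.2 (i2.2 (mem _ ?_ ?_))
    · rw [map_mul]
      calc f a * f b * (f a * f b) = f a * f b * (f b * f a * f ζ) := by rw [← hab']
        _ = f a * (f b * f b) * f a * f ζ := by simp only [mul_assoc]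
        _ = f ζ := by
          rw [hb', ← (hz (f a)).eq, mul_assoc (f ζ), ha', hz2, one_mul]
    · rw [map_mul]
      change f a * f b * c = c * (f a * f b)
      calc f a * f b * c = f a * c * f b * f ζ := by
            rw [mul_assoc, h2]; simp only [mul_assoc]
        _ = c * (f a * f b) := by
            rw [h1, mul_assoc _ (f ζ), (hz (f b)).eq]; simp only [mul_assoc, hz2, mul_one]
  have := (comm _ haS haN _ hbS (i1.1 haN)).eq
  rw [hab', mul_eq_left] at this
  exact hm (by rw [← hζ, ← hf, this]; rfl)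

end Cfsg.Agent.GL2D
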