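import Cfsg.Agent.GL2D.Tr

/-!
Two forbidden configurations in an irreducible finite subgroup of `GL₂(D)` (S3259): Frobenius
groups `p : r` with `r ≥ 3`, and `p : 4k` for `p = 2 ^ k + 1`, `4 ∣ k`.
-/

set_option autoImplicit false

namespace Cfsg.Agent.GL2D

universe u v

theorem fermat_prod {C : Type*} [CommRing C] {a J : C} {k : ℕ} (h4 : 4 ∣ k) (hJ : J * J = -1)
    (ha : a ^ (2 ^ k + 1) = 1) :
    (a ^ 2 - 1) * (∏ m ∈ Finset.range (2 * k), (1 - J * a ^ 2 ^ m) + 1) = 0 := by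
  set b := a ^ 2 ^ k with hb
  have hab : a * b = 1 := by rw [hb, ← pow_succ', ha]
  have hpow : ∀ n : ℕ, a ^ n * b ^ n = 1 := fun n => by rw [← mul_pow, hab, one_pow]
  have hbk : b ^ 2 ^ k = a := by
    have := hpow (2 ^ k)
    rw [← hb] at this
    calc b ^ 2 ^ k = (a * b) * b ^ 2 ^ k := by rw [hab, one_mul]
      _ = a := by rw [mul_assoc, this, mul_one]
  have h1 : ∀ n : ℕ, (a - b) * ∏ m ∈ Finset.range n, (a ^ 2 ^ m + b ^ 2 ^ m)
      = a ^ 2 ^ n - b ^ 2 ^ n := by
    intro n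
    induction n with
    | zero => simp
    | succ n ih =>
      rw [Finset.prod_range_succ, ← mul_assoc, ih, pow_succ 2 n, pow_mul, pow_mul]
      ring
  have h2 : ∏ m ∈ Finset.range (2 * k), (1 - J * a ^ 2 ^ m)
      = ∏ m ∈ Finset.range k, (a ^ 2 ^ m + b ^ 2 ^ m) := by
    rw [two_mul, Finset.prod_range_add, ← Finset.prod_mul_distrib]
    have : ∀ m ∈ Finset.range k, (1 - J * a ^ 2 ^ m) * (1 - J * a ^ 2 ^ (k + m))
        = (-J) * (a ^ 2 ^ m + b ^ 2 ^ m) := by
      intro m _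
      rw [pow_add, pow_mul, ← hb]
      linear_combination (J * J) * hpow (2 ^ m) + hJ
    rw [Finset.prod_congr rfl this, Finset.prod_mul_distrib, Finset.prod_const, Finset.card_range]
    obtain ⟨l, rfl⟩ := h4
    have : (-J) ^ 4 = 1 := by linear_combination (J * J - 1) * hJ
    rw [pow_mul, this, one_pow, one_mul]
  have h3 := h1 k
  rw [← hb, hbk] at h3
  rw [h2]
  linear_combination a * h3 + (∏ m ∈ Finset.range k, (a ^ 2 ^ m + b ^ 2 ^ m) + 1) * hab

theorem two_pow_not_modEq {k m : ℕ} (h0 : 0 < m) (hm : m < 2 * k) :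
    ¬ 2 ^ m ≡ 1 [MOD (2 ^ k + 1)] := by
  intro h
  rcases le_or_gt m k with h1 | h1
  · have a1 : 2 ^ m ≤ 2 ^ k := Nat.pow_le_pow_right (by norm_num) h1
    have a2 : 1 < 2 ^ m := Nat.one_lt_two_pow (by omega)
    have := Nat.ModEq.eq_of_lt_of_lt h (by omega) (by omega)
    omega
  · obtain ⟨j, rfl⟩ : ∃ j, m = k + j := ⟨m - k, by omega⟩
    have a1 : 2 ^ j < 2 ^ k := Nat.pow_lt_pow_right (by norm_num) (by omega)
    have a2 : (2 ^ k + 1) * 2 ^ j ≡ 1 + 2 ^ j [MOD (2 ^ k + 1)] := by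
      rw [add_mul, one_mul, ← pow_add]
      exact h.add_right _
    have a3 : (2 ^ k + 1) ∣ 1 + 2 ^ j :=
      (Nat.modEq_zero_iff_dvd).1 (a2.symm.trans ((Nat.modEq_zero_iff_dvd).2 (dvd_mul_right _ _)))
    have := Nat.le_of_dvd (by positivity) a3
    omega

variable {R : Type u} [Ring R] [Algebra ℚ R] [Nontrivial R] {H : Type v} [Group H] [Finite H]
  {ρ : H →* R}

/-- No Frobenius group `p : r` with `r ≥ 3`. -/
theorem Rk2.no_frob (hR : Rk2 R) (hi : Irr ρ) (hρ : Function.Injective ρ) {p : ℕ} (hp : p.Prime)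
    {a b : H} (ha : a ^ p = 1) (ha1 : a ≠ 1) {s r : ℕ} (hr : 3 ≤ r) (hb : b ^ r = 1)
    (hsp : s.Coprime p) (hv : b * a = a ^ s * b)
    (hs : ∀ m, 0 < m → m < r → ¬ s ^ m ≡ 1 [MOD p]) : False := by
  obtain ⟨S, _, _, T, L, hT, hL⟩ := hR.exists_tr1 hi
  have := hT.le hp (a := L a) (v := L b) (n := r) (by rw [← map_pow, ha, map_one])
    (fun h => ha1 (hρ (by rw [hL a h, map_one]))) (by omega) hsp
    (by rw [← map_pow, ← map_mul, ← map_mul, hv]) hs (by rw [← map_pow, hb, map_one, mul_one])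
  omega

open scoped IsMulCommutative in
/-- No Borel subgroup of `SL₂(p)` for a Fermat prime `p ≥ 17`. -/
theorem Rk2.no_fermat (hR : Rk2 R) (hi : Irr ρ) (hρ : Function.Injective ρ) {k : ℕ} (h4 : 4 ∣ k)
    (hk : k ≠ 0) (hp : (2 ^ k + 1).Prime) {a y : H} (ha : a ^ (2 ^ k + 1) = 1) (ha1 : a ≠ 1)
    (hy : y * a = a ^ 2 * y) (hy2 : ρ (y ^ (2 * k)) = -1) : False := by
  obtain ⟨S, _, _, T, L, J, hT, hL, hL', hJ, hJc⟩ := hR.exists_tr2 hi
  set A := L a with hA
  set Y := L y with hY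
  have hAp : A ^ (2 ^ k + 1) = 1 := by rw [hA, ← map_pow, ha, map_one]
  have hYA : Y * A = A ^ 2 * Y := by rw [hA, hY, ← map_pow, ← map_mul, ← map_mul, hy]
  have hY2 : Y ^ (2 * k) = -1 := by rw [hY, ← map_pow]; exact hL' _ hy2
  have hJA : Commute J A := hJc a
  have hJY : Commute J Y := hJc y
  have hYj : ∀ j : ℕ, Y * A ^ j = (A ^ 2) ^ j * Y := by
    intro j
    induction j with
    | zero => simp
    | succ j ih => rw [pow_succ, ← mul_assoc, ih, mul_assoc, hYA, ← mul_assoc, ← pow_succ]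
  have hYm : ∀ m : ℕ, Y ^ m * A = A ^ (2 ^ m) * Y ^ m := by
    intro m
    induction m with
    | zero => simp
    | succ m ih =>
      rw [pow_succ', mul_assoc, ih, ← mul_assoc, hYj, mul_assoc, ← pow_mul, ← pow_succ' 2]
  have hcop : Nat.Coprime 2 (2 ^ k + 1) := by
    rw [Nat.coprime_two_left]
    exact ((Nat.even_pow.2 ⟨even_two, hk⟩)).add_one
  have : IsMulCommutative (Subring.closure ({A, J} : Set S)) :=
    Subring.isMulCommutative_closure (by
      rintro x (rfl | rfl) z (rfl | rfl)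
      · rfl
      · exact hJA.symm.eq
      · exact hJA.eq
      · rfl)
  let A' : Subring.closure ({A, J} : Set S) := ⟨A, Subring.subset_closure (by simp)⟩
  let J' : Subring.closure ({A, J} : Set S) := ⟨J, Subring.subset_closure (by simp)⟩
  let P : ℕ → Subring.closure ({A, J} : Set S) :=
    fun n => ∏ m ∈ Finset.range n, (1 - J' * A' ^ 2 ^ m)
  have hP : ∀ n : ℕ, ((1 - J * A) * Y) ^ n = (P n : S) * Y ^ n := by
    intro n
    induction n with
    | zero => simp [P]
    | succ n ih =>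
      have : (P (n + 1) : S) = (P n : S) * (1 - J * A ^ 2 ^ n) := by
        simp only [P]
        rw [Finset.prod_range_succ]
        rfl
      rw [pow_succ, ih, this, pow_succ Y]
      simp only [mul_assoc]
      congr 1
      rw [← mul_assoc, ← mul_assoc, mul_sub, sub_mul 1, mul_one, one_mul, ← mul_assoc,
        ← (hJY.pow_right n).eq, mul_assoc J, hYm, mul_assoc J]
  have key := fermat_prod (a := A') (J := J') h4 (Subtype.ext hJ) (Subtype.ext hAp)
  have key' : (A ^ 2 - 1) * ((P (2 * k) : S) + 1) = 0 := congrArg Subtype.val key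
  have h1 : avg (2 ^ k + 1) A * ((P (2 * k) : S) + 1) = (P (2 * k) : S) + 1 := by
    rw [← avg_pow_eq hp.ne_zero hAp hcop]
    refine avg_mul_of hp.ne_zero ?_
    rw [sub_mul, one_mul] at key'
    exact sub_eq_zero.1 key'
  have := hT.le hp (a := A) (v := (1 - J * A) * Y) (s := 2) (n := 2 * k) hAp
    (fun h => ha1 (hρ (by rw [hL a h, map_one]))) (by omega) hcop
    (by
      have hc : Commute (A ^ 2) (1 - J * A) :=
        (Commute.one_right _).sub_right
          ((hJA.symm.pow_left 2).mul_right ((Commute.refl A).pow_left 2))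
      rw [mul_assoc, hYA, ← mul_assoc, ← hc.eq, mul_assoc])
    (fun m h0 hm => two_pow_not_modEq h0 hm)
    (by
      rw [hP, hY2, mul_neg_one, mul_neg]
      have h2 : (1 - avg (2 ^ k + 1) A) * ((P (2 * k) : S) + 1) = 0 := by
        rw [sub_mul, h1, one_mul, sub_self]
      rw [mul_add, mul_one] at h2
      exact neg_eq_of_add_eq_zero_right h2)
  obtain ⟨l, rfl⟩ := h4
  omega

end Cfsg.Agent.GL2D
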