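import Cfsg.Agent.GL2D.Frob
import Mathlib.LinearAlgebra.Matrix.SpecialLinearGroup
import Mathlib.FieldTheory.Finite.Basic
import Mathlib.NumberTheory.Fermat
import Mathlib.GroupTheory.Perm.Cycle.Type

/-!
An irreducible `SL₂(q)`, `q > 3` odd, in `GL₂(D)` has `q = 5` or `q = 9` (S3259).
-/

set_option autoImplicit false

namespace Cfsg.Agent.GL2D

open Matrix

universe u v

section sl
variable {F : Type*} [Field F]

/-- The upper unitriangular matrix. -/
def slU (b : F) : SpecialLinearGroup (Fin 2) F := ⟨!![1, b; 0, 1], by simp [det_fin_two]⟩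

/-- The diagonal matrix. -/
def slD (t : Fˣ) : SpecialLinearGroup (Fin 2) F :=
  ⟨!![(t : F), 0; 0, ((t⁻¹ : Fˣ) : F)], by simp [det_fin_two]⟩

theorem coe_slU (b : F) : (slU b).1 = !![1, b; 0, 1] := rfl

theorem coe_slD (t : Fˣ) : (slD t).1 = !![(t : F), 0; 0, ((t⁻¹ : Fˣ) : F)] := rfl

theorem slU_mul (b c : F) : slU b * slU c = slU (b + c) := by
  ext i j
  rw [SpecialLinearGroup.coe_mul]
  fin_cases i <;> fin_cases j <;> simp [coe_slU, add_comm]

theorem slU_eq_one {b : F} : slU b = 1 ↔ b = 0 := by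
  constructor
  · intro h
    have := congrArg (fun z : SpecialLinearGroup (Fin 2) F => z.1 0 1) h
    simpa [slU] using this
  · rintro rfl
    ext i j
    fin_cases i <;> fin_cases j <;> simp [slU]

theorem slU_pow (b : F) (n : ℕ) : slU b ^ n = slU (n * b) := by
  induction n with
  | zero => simp [slU_eq_one.2 rfl]
  | succ n ih => rw [pow_succ, ih, slU_mul]; congr 1; push_cast; ring

theorem slD_mul (s t : Fˣ) : slD s * slD t = slD (s * t) := by
  ext i j
  rw [SpecialLinearGroup.coe_mul]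
  fin_cases i <;> fin_cases j <;> simp [coe_slD, mul_comm]

theorem slD_one : slD (1 : Fˣ) = 1 := by
  ext i j
  fin_cases i <;> fin_cases j <;> simp [slD]

theorem slD_pow (t : Fˣ) (n : ℕ) : slD t ^ n = slD (t ^ n) := by
  induction n with
  | zero => simp [slD_one]
  | succ n ih => rw [pow_succ, ih, slD_mul, pow_succ]

theorem slD_mul_slU (t : Fˣ) (b : F) : slD t * slU b = slU ((t : F) ^ 2 * b) * slD t := by
  ext i j
  rw [SpecialLinearGroup.coe_mul, SpecialLinearGroup.coe_mul]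
  fin_cases i <;> fin_cases j <;> simp [coe_slD, coe_slU]
  field_simp

theorem slD_neg_one_comm (g : SpecialLinearGroup (Fin 2) F) : Commute (slD (-1 : Fˣ)) g := by
  unfold Commute SemiconjBy
  ext i j
  rw [SpecialLinearGroup.coe_mul, SpecialLinearGroup.coe_mul]
  fin_cases i <;> fin_cases j <;> simp [coe_slD, mul_apply, Fin.sum_univ_two]

theorem slD_neg_one_ne (h : (2 : F) ≠ 0) : slD (-1 : Fˣ) ≠ 1 := by
  intro h1
  have := congrArg (fun z : SpecialLinearGroup (Fin 2) F => z.1 0 0) h1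
  simp only [slD, Units.val_neg, Units.val_one, of_apply, cons_val', cons_val_zero,
    cons_val_fin_one, SpecialLinearGroup.coe_one, one_apply_eq] at this
  apply h
  linear_combination -this

end sl

variable {R : Type u} [Ring R] [Algebra ℚ R]

/-- A central involution of an irreducible group is `-1`. -/
theorem Irr.eq_or {H : Type v} [Group H] {ρ : H →* R} (hi : Irr ρ) {t : H} (ht : t * t = 1)
    (hc : ∀ g, Commute t g) : ρ t = 1 ∨ ρ t = -1 := by
  rcases hi _ (half_idem (s := ρ t) (by rw [← map_mul, ht, map_one])) (fun h =>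
    ((Commute.one_left _).add_left ((hc h).map ρ)).smul_left _) with h | h
  · exact Or.inr (half_eq_zero.1 h)
  · exact Or.inl (half_eq_one.1 h)

variable [Nontrivial R] {F : Type v} [Field F] [Fintype F]

theorem Rk2.card_SL_of_lt (hR : Rk2 R) (ρ : SpecialLinearGroup (Fin 2) F →* R)
    (hρ : Function.Injective ρ) {p : ℕ} [CharP F p] (hp : p.Prime) (hlt : p < Fintype.card F) :
    Fintype.card F - 1 ≤ 4 * (p - 1) := by
  classical
  have hp0 := hp.ne_zero
  have hUp : ∀ b : F, ρ (slU b) ^ p = 1 := fun b => by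
    rw [← map_pow, slU_pow, CharP.cast_eq_zero, zero_mul, slU_eq_one.2 rfl, map_one]
  have hUc : ∀ b c : F, Commute (ρ (slU b)) (ρ (slU c)) := fun b c => by
    refine Commute.map ?_ ρ
    unfold Commute SemiconjBy
    rw [slU_mul, slU_mul, add_comm]
  have hU1 : ∀ b : F, b ≠ 0 → ρ (slU b) ≠ 1 := fun b hb h =>
    hb (slU_eq_one.1 (hρ (by rw [h, map_one])))
  have hUi : ∀ (b c : F) (i : ℕ), ρ (slU b) ^ i * ρ (slU c) = ρ (slU (i * b + c)) := fun b c i => by
    rw [← map_pow, ← map_mul, slU_pow, slU_mul]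
  obtain ⟨c, hc⟩ : ∃ c : F, c ∉ (Finset.range p).image (fun i : ℕ => -(i : F)) := by
    by_contra h
    push Not at h
    have h1 : (Finset.univ : Finset F) ⊆ (Finset.range p).image (fun i : ℕ => -(i : F)) :=
      fun c _ => h c
    have h2 := (Finset.card_le_card h1).trans Finset.card_image_le
    rw [Finset.card_univ, Finset.card_range] at h2
    omega
  obtain ⟨b, hb0, hb⟩ : ∃ b : F, b ≠ 0 ∧ avg p (ρ (slU b)) ≠ 0 := by
    rcases exists_avg_ne_zero hp (hUp 1) (hUc 1 c) with h | ⟨i, hi, h⟩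
    · exact ⟨1, one_ne_zero, h⟩
    · rw [hUi] at h
      refine ⟨_, fun h0 => hc ?_, h⟩
      exact Finset.mem_image.2 ⟨i, Finset.mem_range.2 hi, by linear_combination -h0⟩
  have hQ : ∀ t : Fˣ, avg p (ρ (slU ((t : F) ^ 2 * b))) ≠ 0 := by
    intro t h0
    have h1 : slU ((t : F) ^ 2 * b) = slD t * slU b * (slD t)⁻¹ := by
      rw [slD_mul_slU, mul_inv_cancel_right]
    have e1 : ρ (slD t) * ρ (slD t)⁻¹ = 1 := by rw [← map_mul, mul_inv_cancel, map_one]
    have e2 : ρ (slD t)⁻¹ * ρ (slD t) = 1 := by rw [← map_mul, inv_mul_cancel, map_one]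
    rw [h1, map_mul, map_mul, avg_conj e1 e2] at h0
    apply hb
    calc avg p (ρ (slU b)) = ρ (slD t)⁻¹ * (ρ (slD t) * avg p (ρ (slU b)) * ρ (slD t)⁻¹)
          * ρ (slD t) := by
          rw [← mul_assoc, ← mul_assoc, e2, one_mul, mul_assoc, e2, mul_one]
      _ = 0 := by rw [h0, mul_zero, zero_mul]
  have line : ∀ s s' : F, s ≠ 0 → s' ≠ 0 → avg p (ρ (slU s)) ≠ 0 →
      avg p (ρ (slU s)) = avg p (ρ (slU s')) →
      s' ∈ (Finset.Ico 1 p).image (fun i : ℕ => -(i : F) * s) := by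
    intro s s' hs hs' h0 h
    by_contra hn
    apply h0
    have := hR.avg_mul_avg hp (hUp s) (hUp s') (hUc s s') (hU1 s hs) (fun i hi => by
      rw [hUi]
      refine hU1 _ fun h1 => hn (Finset.mem_image.2 ⟨i, Finset.mem_Ico.2 ⟨?_, hi⟩, ?_⟩)
      · by_contra h2
        have : i = 0 := by omega
        subst this
        exact hs' (by simpa using h1)
      · linear_combination -h1)
    rwa [← h, (avg_idem hp0 (hUp s)).eq] at this
  have hne : ∀ t : Fˣ, (t : F) ^ 2 * b ≠ 0 := fun t => mul_ne_zero (pow_ne_zero _ t.ne_zero) hb0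
  have dich : ∀ t : Fˣ, avg p (ρ (slU b)) = avg p (ρ (slU ((t : F) ^ 2 * b))) ∨
      avg p (ρ (slU b)) + avg p (ρ (slU ((t : F) ^ 2 * b))) = 1 := fun t =>
    hR.eq_or_add (avg_idem hp0 (hUp _)) (avg_idem hp0 (hUp _)) hb (avg_ne_one (hUp _) (hU1 _ hb0))
      (hQ t) (avg_ne_one (hUp _) (hU1 _ (hne t))) (commute_avg (commute_avg (hUc _ _)).symm)
  obtain ⟨b₂, hb₂⟩ : ∃ b₂ : F, ∀ t : Fˣ, (t : F) ^ 2 * b ∈
      (Finset.Ico 1 p).image (fun i : ℕ => -(i : F) * b) ∪
        (Finset.Ico 1 p).image (fun i : ℕ => -(i : F) * b₂) := by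
    by_cases h : ∃ t₀ : Fˣ, avg p (ρ (slU b)) + avg p (ρ (slU ((t₀ : F) ^ 2 * b))) = 1
    · obtain ⟨t₀, h₀⟩ := h
      refine ⟨(t₀ : F) ^ 2 * b, fun t => Finset.mem_union.2 ?_⟩
      rcases dich t with h1 | h1
      · exact Or.inl (line _ _ hb0 (hne t) hb h1)
      · exact Or.inr (line _ _ (hne t₀) (hne t) (hQ t₀) (add_left_cancel (h₀.trans h1.symm)))
    · refine ⟨b, fun t => Finset.mem_union.2 (Or.inl ?_)⟩
      exact line _ _ hb0 (hne t) hb ((dich t).resolve_right fun h1 => h ⟨t, h1⟩)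
  have h1 := Finset.card_le_mul_card_image_of_maps_to (s := (Finset.univ : Finset Fˣ))
    (f := fun t : Fˣ => (t : F) ^ 2 * b) (fun t _ => hb₂ t) 2 (by
      intro x _
      by_cases hx : ∃ t₀ : Fˣ, (t₀ : F) ^ 2 * b = x
      · obtain ⟨t₀, rfl⟩ := hx
        refine le_trans (Finset.card_le_card (t := {t₀, -t₀}) fun t ht => ?_) Finset.card_le_two
        have h2 := mul_right_cancel₀ hb0 (Finset.mem_filter.1 ht).2
        rcases sq_eq_sq_iff_eq_or_eq_neg.1 h2 with h3 | h3
        · simp [Units.ext h3]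
        · have : t = -t₀ := Units.ext h3
          simp [this]
      · rw [Finset.filter_eq_empty_iff.2 fun t _ h => hx ⟨t, h⟩]
        simp)
  have h2 := Finset.card_union_le ((Finset.Ico 1 p).image (fun i : ℕ => -(i : F) * b))
    ((Finset.Ico 1 p).image (fun i : ℕ => -(i : F) * b₂))
  have h3 := Finset.card_image_le (s := Finset.Ico 1 p) (f := fun i : ℕ => -(i : F) * b)
  have h4 := Finset.card_image_le (s := Finset.Ico 1 p) (f := fun i : ℕ => -(i : F) * b₂)
  rw [Finset.card_univ, Fintype.card_units] at h1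
  rw [Nat.card_Ico] at h3 h4
  omega

theorem Rk2.card_SL_prime (hR : Rk2 R) (ρ : SpecialLinearGroup (Fin 2) F →* R)
    (hρ : Function.Injective ρ) (hi : Irr ρ) {p : ℕ} [CharP F p] (hp : p.Prime)
    (hc : Fintype.card F = p) (h3 : 3 < p) : p = 5 := by
  classical
  have hUp : slU (1 : F) ^ p = 1 := by
    rw [slU_pow, CharP.cast_eq_zero, zero_mul, slU_eq_one]
  have hU1 : slU (1 : F) ≠ 1 := fun h => one_ne_zero (slU_eq_one.1 h)
  have hsurj : ∀ x : F, ∃ s : ℕ, (s : F) = x := by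
    intro x
    have h1 : ((Finset.range p).image (fun i : ℕ => (i : F))).card = Fintype.card F := by
      rw [Finset.card_image_of_injOn, Finset.card_range, hc]
      intro i hi j hj h
      exact Nat.ModEq.eq_of_lt_of_lt ((CharP.natCast_eq_natCast F p).1 h)
        (Finset.mem_range.1 hi) (Finset.mem_range.1 hj)
    have h2 := Finset.eq_univ_of_card _ h1
    obtain ⟨s, -, hs⟩ := Finset.mem_image.1 (h2 ▸ Finset.mem_univ x)
    exact ⟨s, hs⟩
  have h2 : p - 1 = 2 ^ (p - 1).primeFactorsList.length := by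
    refine Nat.eq_prime_pow_of_unique_prime_dvd (by omega) fun {r} hr hd => ?_
    by_contra hr2
    have : Fact r.Prime := ⟨hr⟩
    obtain ⟨t, ht⟩ := exists_prime_orderOf_dvd_card (G := Fˣ) r (by rwa [Fintype.card_units, hc])
    obtain ⟨s, hs⟩ := hsurj ((t : F) ^ 2)
    have hr3 : 3 ≤ r := by
      have := hr.two_le
      omega
    refine hR.no_frob hi hρ hp hUp hU1 (b := slD t) (s := s) hr3 ?_ ?_ ?_ ?_
    · rw [slD_pow, ← ht, pow_orderOf_eq_one, slD_one]
    · rw [Nat.coprime_comm, hp.coprime_iff_not_dvd, ← CharP.cast_eq_zero_iff F p, hs]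
      exact pow_ne_zero _ t.ne_zero
    · rw [slD_mul_slU, slU_pow, hs]
    · intro m h0 hm h
      have h1 := (CharP.natCast_eq_natCast F p).2 h
      rw [Nat.cast_pow, hs, Nat.cast_one, ← pow_mul] at h1
      have h4 : t ^ (2 * m) = 1 := Units.ext (by simpa using h1)
      have h5 := orderOf_dvd_of_pow_eq_one h4
      rw [ht] at h5
      rcases (Nat.Prime.dvd_mul hr).1 h5 with h6 | h6
      · exact hr2 ((Nat.prime_dvd_prime_iff_eq hr Nat.prime_two).1 h6)
      · have := Nat.le_of_dvd h0 h6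
        omega
  obtain ⟨k, hk⟩ : ∃ k, p = 2 ^ k + 1 := ⟨(p - 1).primeFactorsList.length, by omega⟩
  have hk0 : k ≠ 0 := by
    rintro rfl
    omega
  obtain ⟨m, hm⟩ := Nat.pow_of_pow_add_prime (by norm_num) hk0 (hk ▸ hp)
  rcases m with _ | _ | m
  · subst hm
    omega
  · subst hm
    omega
  exfalso
  set l := 2 ^ m with hl
  have hkl : k = 4 * l := by rw [hm, hl]; ring
  have hF : (2 : F) ^ k = -1 := by
    have := CharP.cast_eq_zero F p
    rw [hk] at this
    push_cast at this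
    linear_combination this
  have h20 : (2 : F) ≠ 0 := by
    intro h
    rw [h, zero_pow hk0] at hF
    exact one_ne_zero (neg_eq_zero.1 hF.symm)
  have ht : ((2 : F) ^ l * (2 ^ (2 * l) - 1)) ^ 2 = 2 := by
    rw [hkl] at hF
    have e1 : (2 : F) ^ (4 * l) = (2 ^ l) ^ 4 := by rw [← pow_mul, mul_comm]
    have e2 : (2 : F) ^ (2 * l) = (2 ^ l) ^ 2 := by rw [← pow_mul, mul_comm]
    rw [e1] at hF
    rw [e2]
    linear_combination ((2 ^ l) ^ 2 - 2) * hF
  have ht0 : (2 : F) ^ l * (2 ^ (2 * l) - 1) ≠ 0 := by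
    intro h
    rw [h] at ht
    exact h20 (by simpa using ht.symm)
  let t : Fˣ := Units.mk0 _ ht0
  have ht' : (t : F) ^ 2 = 2 := ht
  subst hk
  refine hR.no_fermat hi hρ (k := k) ⟨l, hkl⟩ hk0 hp hUp hU1 (y := slD t) ?_ ?_
  · rw [slD_mul_slU, slU_pow, ht']
    simp
  · have : t ^ (2 * k) = -1 := Units.ext (by
      rw [Units.val_pow_eq_pow_val, pow_mul, ht', hF]; simp)
    rw [slD_pow, this]
    refine (hi.eq_or ?_ slD_neg_one_comm).resolve_left fun h => ?_
    · rw [slD_mul]; simp [slD_one]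
    · exact slD_neg_one_ne h20 (hρ (by rw [h, map_one]))

/-- An irreducible `SL₂(q)`, `q > 3` odd, has `q = 5` or `q = 9`. -/
theorem Rk2.card_SL (hR : Rk2 R) (ρ : SpecialLinearGroup (Fin 2) F →* R)
    (hρ : Function.Injective ρ) (hi : Irr ρ) (hodd : Odd (Fintype.card F))
    (h3 : 3 < Fintype.card F) : Fintype.card F = 5 ∨ Fintype.card F = 9 := by
  obtain ⟨p, hp⟩ := CharP.exists F
  obtain ⟨n, hpp, hn⟩ := FiniteField.card F p
  obtain ⟨n, hn0⟩ := n
  simp only [PNat.mk_coe] at hn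
  rcases Nat.lt_or_ge 1 n with h | h
  · right
    have h1 : p ^ 2 ≤ p ^ n := Nat.pow_le_pow_right hpp.pos h
    have h2 := hpp.two_le
    have h4 := hR.card_SL_of_lt ρ hρ hpp (by rw [hn]; nlinarith)
    have h5 : p ≠ 2 := by
      rintro rfl
      rw [hn] at hodd
      exact (Nat.not_even_iff_odd.2 hodd) (Nat.even_pow.2 ⟨even_two, by omega⟩)
    have h6 : p ≤ 3 := by
      by_contra h7
      obtain ⟨q, rfl⟩ : ∃ q, p = q + 4 := ⟨p - 4, by omega⟩
      have : (q + 4) ^ 2 = q * q + 8 * q + 16 := by ring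
      omega
    have h7 : p = 3 := by omega
    subst h7
    omega
  · left
    have : n = 1 := by omega
    subst this
    rw [pow_one] at hn
    rw [hn]
    exact hR.card_SL_prime ρ hρ hi hpp hn (hn ▸ h3)

end Cfsg.Agent.GL2D
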