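import Mathlib
import Cfsg.Agent.GL2D.Base
import Cfsg.Agent.GT.Zipper
import Cfsg.Agent.GT.Quasisimple

/-!
In a quasisimple subgroup of `GL₂(D)` an involution different from `-1` is not a square.
-/

set_option autoImplicit false

namespace Cfsg.Agent.GL2D

open Subgroup

variable {R : Type*} [Ring R]

theorem Rk2.sign (hR : Rk2 R) {f a : R} (hf : IsIdempotentElem f) (h1 : f ≠ 1)
    (ha : Commute a f) (h : a * a * f = f) : a * f = f ∨ a * f = -f := by
  by_cases h0 : (a - 1) * f = 0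
  · left; rwa [sub_mul, one_mul, sub_eq_zero] at h0
  · right
    have := hR.cancel (y := a + 1) hf h1 h0 (by
      rw [mul_assoc, ← (ha.add_left (Commute.one_left f)).eq, ← mul_assoc]
      have : (a - 1) * (a + 1) = a * a - 1 := by noncomm_ring
      rw [this, sub_mul, h, one_mul, sub_self])
    rw [mul_add, mul_one, ← ha.eq] at this
    exact eq_neg_of_add_eq_zero_left this

theorem one_add_mul_sum (c : R) (n : ℕ) :
    (1 + c) * ∑ i ∈ Finset.range n, c ^ (2 * i) = ∑ j ∈ Finset.range (2 * n), c ^ j := by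
  induction n with
  | zero => simp
  | succ n ih =>
    rw [Finset.sum_range_succ, mul_add, ih, show 2 * (n + 1) = 2 * n + 1 + 1 by ring,
      Finset.sum_range_succ, Finset.sum_range_succ, add_mul, one_mul, ← pow_succ', add_assoc]

variable [Algebra ℚ R] {H : Type*} [Group H] [Finite H]

omit [Finite H] in
/-- An element of odd order inverted by an involution has no fixed line. -/
theorem Rk2.sum_eq_zero (hR : Rk2 R) {ρ : H →* R} (hρ : Function.Injective ρ) {t c : H}
    (ht : t * t = 1) (hc1 : c ≠ 1) (ho : Odd (orderOf c)) (h : t * c * t⁻¹ = c⁻¹) :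
    ∑ j ∈ Finset.range (orderOf c), ρ c ^ j = 0 := by
  have hn : orderOf c ≠ 0 := ho.pos.ne'
  have hx : ρ c ^ orderOf c = 1 := by rw [← map_pow, pow_orderOf_eq_one, map_one]
  have hx' : ρ c⁻¹ ^ orderOf c = 1 := by rw [← map_pow, inv_pow, pow_orderOf_eq_one]; simp
  have hti : t⁻¹ = t := inv_eq_of_mul_eq_one_right ht
  have htt : ρ t * ρ t = 1 := by rw [← map_mul, ht, map_one]
  rw [← smul_avg hn]
  set e := avg (orderOf c) (ρ c) with he
  suffices e = 0 by rw [this, smul_zero]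
  by_contra h0
  have hcc : ρ c⁻¹ * ρ c = 1 := by rw [← map_mul, inv_mul_cancel, map_one]
  have a1 : ρ c * e = e := mul_avg hx
  have a2 : ρ c⁻¹ * e = e := by
    conv_lhs => rw [← a1]
    rw [← mul_assoc, hcc, one_mul]
  have a3 : avg (orderOf c) (ρ c⁻¹) = e := by
    have b1 : avg (orderOf c) (ρ c⁻¹) * e = e := avg_mul_of hn a2
    have b2 : avg (orderOf c) (ρ c⁻¹) * ρ c = avg (orderOf c) (ρ c⁻¹) := by
      conv_lhs => rw [← avg_mul hx']
      rw [mul_assoc, hcc, mul_one]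
    rw [← b1, he, mul_avg_of hn b2]
  have a4 : Commute (ρ t) e := by
    have : ρ t * e * ρ t = e := by
      rw [he, ← avg_conj htt htt, ← map_mul, ← map_mul, ← hti]
      nth_rewrite 1 [hti]
      rw [h, a3]
    have h2 := congrArg (· * ρ t) this
    simp only [mul_assoc, htt, mul_one] at h2
    exact h2
  have hei : IsIdempotentElem e := avg_idem hn hx
  have hf : IsIdempotentElem (1 - e) := hei.one_sub
  have hf1 : (1 - e) ≠ 1 := fun h => h0 (by simpa using h)
  have a5 : Commute (ρ t) (1 - e) := (Commute.one_right _).sub_right a4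
  have a6 : Commute (ρ c) (1 - e) :=
    (Commute.one_right _).sub_right (commute_avg (Commute.refl _))
  have a7 : ρ t * ρ c * (1 - e) = ρ c⁻¹ * (ρ t * (1 - e)) := by
    rw [← mul_assoc, ← map_mul, ← map_mul, ← h, inv_mul_cancel_right]
  have a8 : ρ c * (1 - e) = ρ c⁻¹ * (1 - e) := by
    rw [mul_assoc, a6.eq, ← mul_assoc] at a7
    rcases hR.sign hf hf1 a5 (by rw [htt, one_mul]) with h1 | h1
    · rw [h1] at a7; rw [a6.eq, a7]
    · rw [h1, neg_mul, mul_neg, neg_inj] at a7; rw [a6.eq, a7]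
  have a9 : ρ c = ρ c⁻¹ := by
    have : ρ c * (1 - e) + ρ c * e = ρ c⁻¹ * (1 - e) + ρ c⁻¹ * e := by rw [a8, a1, a2]
    simpa [← mul_add] using this
  have b : c ^ 2 = 1 := by
    rw [pow_two]; nth_rewrite 1 [hρ a9]; exact inv_mul_cancel c
  have := Nat.Coprime.eq_one_of_dvd (Nat.coprime_two_right.2 ho) (orderOf_dvd_of_pow_eq_one b)
  exact hc1 (orderOf_eq_one_iff.1 this)

/-- The lattice argument. -/
theorem Rk2.not_sq_of_inverts (hR : Rk2 R) {ρ : H →* R} (hρ : Function.Injective ρ) {t c r : H}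
    (ht : t * t = 1) (ht1 : t ≠ 1) (hc1 : c ≠ 1) (ho : Odd (orderOf c))
    (h : t * c * t⁻¹ = c⁻¹) (hr : r * r = t) : False := by
  have hsum := hR.sum_eq_zero hρ ht hc1 ho h
  have htt : ρ t * ρ t = 1 := by rw [← map_mul, ht, map_one]
  have hti : t⁻¹ = t := inv_eq_of_mul_eq_one_right ht
  have hT1 : ρ t ≠ 1 := fun e => ht1 (hρ (e.trans (map_one ρ).symm))
  obtain ⟨k, hk⟩ := ho
  let L : Submodule ℤ R := Submodule.span ℤ (Set.range ρ)
  have hL : ∀ g, ∀ l ∈ L, ρ g * l ∈ L := fun g l hl => by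
    induction hl using Submodule.span_induction with
    | mem x hx => obtain ⟨y, rfl⟩ := hx; exact Submodule.subset_span ⟨g * y, map_mul _ _ _⟩
    | zero => simp
    | add x y _ _ h1 h2 => rw [mul_add]; exact L.add_mem h1 h2
    | smul a x _ h1 => rw [mul_smul_comm]; exact L.smul_mem a h1
  have hLL : ∀ x ∈ L, ∀ l ∈ L, x * l ∈ L := fun x hx l hl => by
    induction hx using Submodule.span_induction with
    | mem x hx => obtain ⟨y, rfl⟩ := hx; exact hL y l hl
    | zero => simp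
    | add x y _ _ h1 h2 => rw [add_mul]; exact L.add_mem h1 h2
    | smul a x _ h1 => rw [smul_mul_assoc]; exact L.smul_mem a h1
  have hg : ∀ g, ρ g ∈ L := fun g => Submodule.subset_span ⟨g, rfl⟩
  have h1L : (1 : R) ∈ L := map_one ρ ▸ hg 1
  let M : Submodule ℤ R :=
    { carrier := {l | l ∈ L ∧ ρ t * l = -l}
      zero_mem' := ⟨L.zero_mem, by simp⟩
      add_mem' := fun ⟨a1, a2⟩ ⟨b1, b2⟩ => ⟨L.add_mem a1 b1, by rw [mul_add, a2, b2, neg_add]⟩
      smul_mem' := fun a x ⟨a1, a2⟩ => ⟨L.smul_mem a a1, by rw [mul_smul_comm, a2, smul_neg]⟩ }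
  have hM : ∀ l, l ∈ M ↔ l ∈ L ∧ ρ t * l = -l := fun l => Iff.rfl
  have hfg : M.FG := by
    have : L.FG := Submodule.fg_span (Set.finite_range ρ)
    exact this.of_le fun l hl => hl.1
  -- the normalised square root
  obtain ⟨s, hsL, hs2, hsf⟩ : ∃ s ∈ L, s * s = ρ t ∧ ρ t * (1 - s) = -(1 - s) := by
    have hrr : ρ r * ρ r = ρ t := by rw [← map_mul, hr]
    have hc : Commute (ρ r) (ρ t) := by rw [← hrr]; exact (Commute.refl _).mul_right (.refl _)
    have hc' : Commute (ρ r) ((1 / 2 : ℚ) • (1 + ρ t)) :=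
      ((Commute.one_right _).add_right hc).smul_right _
    have key : ∀ s : R, Commute s (ρ t) → s * ((1 / 2 : ℚ) • (1 + ρ t)) = (1 / 2 : ℚ) • (1 + ρ t) →
        ρ t * (1 - s) = -(1 - s) := fun s h1 h2 => by
      have h3 := congrArg (fun z => (2 : ℚ) • z) h2
      simp only [mul_smul_comm, smul_smul] at h3
      norm_num at h3
      rw [mul_add, mul_one, h1.eq] at h3
      rw [mul_sub, mul_one, neg_sub, sub_eq_sub_iff_add_eq_add, add_comm, ← h3]
    rcases hR.sign (half_idem htt) (mt half_eq_one.1 hT1) hc' (by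
      rw [hrr, mul_smul_comm, mul_add, htt, mul_one, add_comm]) with h1 | h1
    · exact ⟨ρ r, hg r, hrr, key _ hc h1⟩
    · exact ⟨-ρ r, L.neg_mem (hg r), by rw [neg_mul_neg, hrr],
        key _ hc.neg_left (by rw [neg_mul, h1, neg_neg])⟩
  have hst : Commute s (ρ t) := by rw [← hs2]; exact (Commute.refl _).mul_right (.refl _)
  -- the unit
  set w := ∑ i ∈ Finset.range (k + 1), ρ c ^ (2 * i) with hw
  have hwL : w ∈ L := L.sum_mem fun i _ => by rw [← map_pow]; exact hg _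
  have hcw : (1 + ρ c) * w = 1 := by
    rw [hw, one_add_mul_sum, show 2 * (k + 1) = orderOf c + 1 by omega, Finset.sum_range_succ,
      hsum, zero_add, ← map_pow, pow_orderOf_eq_one, map_one]
  have hcc : ρ c⁻¹ * ρ c = 1 := by rw [← map_mul, inv_mul_cancel, map_one]
  have hcc' : ρ c * ρ c⁻¹ = 1 := by rw [← map_mul, mul_inv_cancel, map_one]
  have hwc : Commute (ρ c) w := Commute.sum_right _ _ _ fun i _ => (Commute.refl _).pow_right _
  set μ := 2 + ρ c + ρ c⁻¹ with hμ
  have hμν : μ * (ρ c * w * w) = 1 := by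
    have e1 : μ * ρ c = (1 + ρ c) * (1 + ρ c) := by
      rw [hμ, add_mul, add_mul, hcc]; noncomm_ring
    rw [← mul_assoc, ← mul_assoc, e1, mul_assoc (1 + ρ c), hcw, mul_one, hcw]
  have hνμ : (ρ c * w * w) * μ = 1 := by
    have h1 : Commute μ (ρ c) := by
      refine ((Commute.ofNat_left 2 _).add_left (Commute.refl _)).add_left ?_
      exact hcc.trans hcc'.symm
    have h2 : Commute μ w := Commute.sum_right _ _ _ fun i _ => h1.pow_right _
    rw [← ((h1.mul_right h2).mul_right h2).eq, hμν]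
  have htc : ρ t * ρ c = ρ c⁻¹ * ρ t := by
    rw [← map_mul, ← map_mul, ← h, inv_mul_cancel_right]
  have htc' : ρ t * ρ c⁻¹ = ρ c * ρ t := by
    rw [← map_mul, ← map_mul, ← h, hti, ← mul_assoc, ← mul_assoc, ht, one_mul]
  have hμt : ρ t * μ = μ * ρ t := by
    rw [hμ, mul_add, mul_add, htc, htc', add_mul, add_mul, (Commute.ofNat_right (ρ t) 2).eq]; abel
  have hνt : ρ t * (ρ c * w * w) = (ρ c * w * w) * ρ t := by
    calc ρ t * (ρ c * w * w) = (ρ c * w * w) * μ * ρ t * (ρ c * w * w) := by rw [hνμ, one_mul]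
      _ = (ρ c * w * w) * ρ t * (μ * (ρ c * w * w)) := by
        rw [mul_assoc _ μ, ← hμt]; simp only [mul_assoc]
      _ = _ := by rw [hμν, mul_one]
  have step : ∀ m ∈ M, ∃ m' ∈ M, m = (1 + s) * m' := fun m ⟨m1, m2⟩ => by
    have n1 : ρ c * w * w * m ∈ L := hLL _ (hLL _ (hL c w hwL) w hwL) m m1
    have n2 : ρ t * (ρ c * w * w * m) = -(ρ c * w * w * m) := by
      rw [← mul_assoc, hνt, mul_assoc, m2, mul_neg]
    have n3 : μ * (ρ c * w * w * m) = m := by rw [← mul_assoc, hμν, one_mul]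
    generalize ρ c * w * w * m = n at n1 n2 n3
    refine ⟨(1 - s) * ((1 - ρ t * ρ c) * n), ⟨hLL _ (L.sub_mem h1L hsL) _
      (hLL _ (L.sub_mem h1L (hL t _ (hg c))) n n1), by rw [← mul_assoc, hsf, neg_mul]⟩, ?_⟩
    have e1 : (1 + s) * (1 - s) = 1 - ρ t := by rw [← hs2]; noncomm_ring
    have e2 : (1 - ρ t) * (1 - ρ t * ρ c) = 1 - ρ c⁻¹ * ρ t - ρ t + ρ c := by
      rw [← htc, sub_mul, one_mul, mul_sub, mul_one, ← mul_assoc, htt, one_mul]; abel
    rw [← mul_assoc, e1, ← mul_assoc, e2, ← n3]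
    simp only [add_mul, sub_mul, one_mul, mul_assoc, n2, mul_neg, hμ, two_mul]
    abel
  have hle : M ≤ (Ideal.span {(2 : ℤ)}) • M := fun m hm => by
    obtain ⟨m1, h1, rfl⟩ := step m hm
    obtain ⟨m2, ⟨h2, h3⟩, rfl⟩ := step m1 h1
    have e : (1 + s) * ((1 + s) * m2) = (2 : ℤ) • (s * m2) := by
      have : (1 + s) * ((1 + s) * m2) = m2 + (s * s) * m2 + (s * m2 + s * m2) := by noncomm_ring
      rw [this, hs2, h3, add_neg_cancel, zero_add, two_smul]
    rw [e]
    exact Submodule.smul_mem_smul (Ideal.subset_span rfl)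
      ⟨hLL _ hsL _ h2, by rw [← mul_assoc, ← hst.eq, mul_assoc, h3, mul_neg]⟩
  obtain ⟨q, hq1, hq2⟩ := Submodule.exists_sub_one_mem_and_smul_eq_zero_of_fg_of_le_smul _ M hfg hle
  have hq0 : (q : ℚ) ≠ 0 := by
    obtain ⟨a, ha⟩ := Ideal.mem_span_singleton'.1 hq1
    have : q ≠ 0 := by omega
    exact_mod_cast this
  have := hq2 (1 - ρ t) ⟨L.sub_mem h1L (hg t), by rw [mul_sub, htt, mul_one, neg_sub]⟩
  rw [← Int.cast_smul_eq_zsmul ℚ, smul_eq_zero_iff_right hq0, sub_eq_zero] at this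
  exact hT1 this.symm

end Cfsg.Agent.GL2D
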