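import Cfsg.Agent.GL2D.Base
import Mathlib.LinearAlgebra.Trace

/-!
The trace tool for S3259: for an irreducible finite subgroup of `GL₂(D)` the rational span `A` of
the group has a trace with value `1` on proper idempotents; the same on `A × A`.
-/

set_option autoImplicit false

namespace Cfsg.Agent.GL2D

open Module

universe u v

/-- No proper idempotent commutes with the group. -/
def Irr {R H : Type*} [Ring R] [Group H] (ρ : H →* R) : Prop :=
  ∀ e : R, IsIdempotentElem e → (∀ h, Commute e (ρ h)) → e = 0 ∨ e = 1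

/-- A trace whose values on idempotents are natural numbers, with `T 1 = n₀`. -/
structure IsTr {S : Type*} [Ring S] [Algebra ℚ S] (T : S →ₗ[ℚ] ℚ) (n₀ : ℕ) : Prop where
  comm : ∀ x y, T (x * y) = T (y * x)
  one : T 1 = n₀
  idem : ∀ E, IsIdempotentElem E → ∃ n : ℕ, T E = n ∧ (n = 0 → E = 0)

section abstr
variable {S : Type*} [Ring S] [Algebra ℚ S] {T : S →ₗ[ℚ] ℚ} {n₀ : ℕ}

theorem IsTr.zero (hT : IsTr T n₀) {p : ℕ} (hp : p.Prime) {a w : S} (ha : a ^ p = 1) {s : ℕ}
    (hs : ¬ s ≡ 1 [MOD p]) (hw : w * a = a ^ s * w) : T ((1 - avg p a) * w) = 0 := by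
  have hp0 := hp.ne_zero
  set F := 1 - avg p a with hF
  have hFa : Commute a F := (Commute.one_right a).sub_right (commute_avg (Commute.refl a))
  obtain ⟨q, rfl⟩ : ∃ q, p = q + 1 := ⟨p - 1, by omega⟩
  have hcop : (s + q).Coprime (q + 1) := by
    rw [Nat.coprime_comm, hp.coprime_iff_not_dvd]
    intro h
    apply hs
    have h1 : s + q + 1 ≡ 0 + 1 [MOD (q + 1)] := ((Nat.modEq_zero_iff_dvd).2 h).add_right 1
    rw [add_assoc, zero_add] at h1
    exact (Nat.add_modEq_right.symm).trans h1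
  have step : ∀ w : S, w * a = a ^ s * w → T (F * (a ^ (s + q) * w)) = T (F * w) := by
    intro w hw
    calc T (F * (a ^ (s + q) * w)) = T (a ^ q * (F * w * a)) := by
          rw [mul_assoc F, hw, ← mul_assoc (a ^ q), (hFa.pow_left q).eq, add_comm s q, pow_add]
          simp only [mul_assoc]
      _ = T (F * w) := by
          rw [hT.comm, mul_assoc (F * w), ← pow_succ', ha, mul_one]
  have h2 : ∀ i : ℕ, T (F * ((a ^ (s + q)) ^ i * w)) = T (F * w) := by
    intro i
    induction i with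
    | zero => simp
    | succ i ih =>
      rw [pow_succ', mul_assoc, step, ih]
      rw [mul_assoc, hw, ← mul_assoc, ← mul_assoc, ← pow_mul, ← pow_add, ← pow_add,
        add_comm s (_ * _)]
  have h3 : ((q + 1 : ℕ) : ℚ) * T (F * w) = 0 := by
    have : ∑ i ∈ Finset.range (q + 1), T (F * ((a ^ (s + q)) ^ i * w))
        = ((q + 1 : ℕ) : ℚ) * T (F * w) := by
      rw [Finset.sum_congr rfl fun i _ => h2 i, Finset.sum_const, Finset.card_range, nsmul_eq_mul]
    rw [← this, ← map_sum, ← Finset.mul_sum, ← Finset.sum_mul, ← smul_avg hp0,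
      avg_pow_eq hp0 ha hcop, smul_mul_assoc, mul_smul_comm, ← mul_assoc,
      (avg_idem hp0 ha).one_sub_mul_self, zero_mul, smul_zero, map_zero]
  exact (mul_eq_zero.1 h3).resolve_left (by exact_mod_cast hp0)

theorem IsTr.le (hT : IsTr T n₀) {p : ℕ} (hp : p.Prime) {a v : S} (ha : a ^ p = 1) (ha1 : a ≠ 1)
    {s n : ℕ} (hn : n ≠ 0) (hsp : s.Coprime p) (hv : v * a = a ^ s * v)
    (hs : ∀ m, 0 < m → m < n → ¬ s ^ m ≡ 1 [MOD p])
    (hvn : (1 - avg p a) * v ^ n = 1 - avg p a) : n ≤ n₀ := by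
  have hp0 := hp.ne_zero
  set F := 1 - avg p a with hF
  have hFi : IsIdempotentElem F := (avg_idem hp0 ha).one_sub
  have hF0 : F ≠ 0 := fun h => avg_ne_one ha ha1 (sub_eq_zero.1 h).symm
  have hvj : ∀ j : ℕ, v * a ^ j = (a ^ s) ^ j * v := by
    intro j
    induction j with
    | zero => simp
    | succ j ih => rw [pow_succ, ← mul_assoc, ih, mul_assoc, hv, ← mul_assoc, ← pow_succ]
  have hvm : ∀ m : ℕ, v ^ m * a = a ^ (s ^ m) * v ^ m := by
    intro m
    induction m with
    | zero => simp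
    | succ m ih =>
      rw [pow_succ', mul_assoc, ih, ← mul_assoc, hvj, mul_assoc, ← pow_mul, ← pow_succ' s]
  have hc : Commute v F := by
    refine (Commute.one_right v).sub_right ?_
    have : v * avg p a = avg p (a ^ s) * v := by
      unfold avg
      rw [mul_smul_comm, smul_mul_assoc, Finset.mul_sum, Finset.sum_mul]
      simp only [hvj]
    rw [avg_pow_eq hp0 ha hsp] at this
    exact this
  set E := F * avg n v with hE
  have hvE : v * E = E := by
    rw [hE, ← mul_assoc, hc.eq, mul_assoc]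
    unfold avg
    rw [mul_smul_comm, mul_smul_comm, mul_smul_comm]
    congr 1
    have h1 := Finset.sum_range_succ (fun j => v ^ j) n
    have h2 := Finset.sum_range_succ' (fun j => v ^ j) n
    have h3 : v * ∑ j ∈ Finset.range n, v ^ j = ∑ j ∈ Finset.range n, v ^ j + v ^ n - 1 := by
      rw [Finset.mul_sum, ← h1, h2]
      simp [pow_succ']
    rw [h3, mul_sub, mul_add, hvn, mul_one, add_sub_cancel_right]
  have hEi : IsIdempotentElem E := by
    unfold IsIdempotentElem
    conv_lhs => enter [1]; rw [hE]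
    rw [mul_assoc, avg_mul_of hn hvE, hE, ← mul_assoc, hFi.eq]
  have hTE : (n : ℚ) * T E = T F := by
    rw [← smul_eq_mul, ← map_smul, hE, ← mul_smul_comm, smul_avg hn, Finset.mul_sum, map_sum]
    obtain ⟨m, rfl⟩ : ∃ m, n = m + 1 := ⟨n - 1, by omega⟩
    rw [Finset.sum_range_succ', Finset.sum_eq_zero, pow_zero, mul_one, zero_add]
    intro j hj
    exact hT.zero hp ha (hs (j + 1) (by omega) (by simpa using hj)) (hvm (j + 1))
  obtain ⟨k, hk, -⟩ := hT.idem E hEi
  obtain ⟨l, hl, hl0⟩ := hT.idem F hFi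
  obtain ⟨l', hl', -⟩ := hT.idem _ (avg_idem hp0 ha)
  have h1 : (l : ℚ) + l' = n₀ := by
    rw [← hl, ← hl', ← map_add, hF, sub_add_cancel, hT.one]
  rw [hk, hl] at hTE
  have h2 : l + l' = n₀ := by exact_mod_cast h1
  have h3 : n * k = l := by exact_mod_cast hTE
  have h4 : l ≠ 0 := fun h => hF0 (hl0 h)
  have h5 : k ≠ 0 := by
    rintro rfl
    exact h4 (by simpa using h3.symm)
  calc n ≤ n * k := Nat.le_mul_of_pos_right _ (Nat.pos_of_ne_zero h5)
    _ ≤ n₀ := by omega

end abstr

theorem exists_isTr {W : Type*} [AddCommGroup W] [Module ℚ W] [FiniteDimensional ℚ W]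
    (Rg : Set (End ℚ W)) {d n₀ : ℕ} (hd : d ≠ 0) (hW : 2 * finrank ℚ W = n₀ * d)
    (hU : ∀ U : Submodule ℚ W, (∀ r ∈ Rg, ∀ x ∈ U, r x ∈ U) → d ∣ 2 * finrank ℚ U) :
    ∃ T : Subalgebra.centralizer ℚ Rg →ₗ[ℚ] ℚ, IsTr T n₀ := by
  have hdq : (d : ℚ) ≠ 0 := by exact_mod_cast hd
  refine ⟨(2 / d : ℚ) • (LinearMap.trace ℚ W ∘ₗ (Subalgebra.centralizer ℚ Rg).val.toLinearMap),
    fun x y => ?_, ?_, fun E hE => ?_⟩
  · simp [LinearMap.trace_mul_comm ℚ x.1 y.1]
  · simp only [LinearMap.smul_apply, LinearMap.comp_apply, AlgHom.toLinearMap_apply, map_one,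
      LinearMap.trace_one, smul_eq_mul]
    have : (2 : ℚ) * finrank ℚ W = n₀ * d := by exact_mod_cast hW
    field_simp
    linarith
  · have hE' : IsIdempotentElem (E.1 : End ℚ W) := congrArg Subtype.val hE
    have htr := (LinearMap.IsIdempotentElem.isProj_range _ hE').trace
    obtain ⟨n, hn⟩ := hU (LinearMap.range E.1) (by
      rintro r hr _ ⟨x, rfl⟩
      refine ⟨r x, ?_⟩
      have := (Subalgebra.mem_centralizer_iff ℚ).1 E.2 r hr
      exact (LinearMap.congr_fun this x).symm)
    refine ⟨n, ?_, fun h0 => ?_⟩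
    · simp only [LinearMap.smul_apply, LinearMap.comp_apply, AlgHom.toLinearMap_apply,
        Subalgebra.coe_val, smul_eq_mul, htr]
      have : (2 : ℚ) * finrank ℚ (LinearMap.range E.1) = d * n := by exact_mod_cast hn
      field_simp
      linarith
    · rw [h0, mul_zero] at hn
      have h1 : finrank ℚ (LinearMap.range E.1) = 0 := by omega
      exact Subtype.ext (LinearMap.range_eq_bot.1 (Submodule.finrank_eq_zero.1 h1))

section span
variable {R : Type u} [Ring R] [Algebra ℚ R] {H : Type v} [Group H]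

/-- The rational span of the image of the group. -/
def spanA (ρ : H →* R) : Subalgebra ℚ R :=
  (Submodule.span ℚ (Set.range ρ)).toSubalgebra
    (Submodule.subset_span ⟨1, map_one ρ⟩)
    (by
      intro x y hx hy
      induction hx, hy using Submodule.span_induction₂ with
      | mem_mem x y hx hy =>
        obtain ⟨a, rfl⟩ := hx
        obtain ⟨b, rfl⟩ := hy
        exact Submodule.subset_span ⟨a * b, map_mul ρ a b⟩
      | zero_left => simp
      | zero_right => simp
      | add_left x y z _ _ _ h1 h2 => rw [add_mul]; exact add_mem h1 h2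
      | add_right x y z _ _ _ h1 h2 => rw [mul_add]; exact add_mem h1 h2
      | smul_left r x y _ _ h => rw [smul_mul_assoc]; exact Submodule.smul_mem _ _ h
      | smul_right r x y _ _ h => rw [mul_smul_comm]; exact Submodule.smul_mem _ _ h)

/-- The group inside its span. -/
def toA (ρ : H →* R) : H →* spanA ρ where
  toFun h := ⟨ρ h, Submodule.subset_span ⟨h, rfl⟩⟩
  map_one' := Subtype.ext (map_one ρ)
  map_mul' a b := Subtype.ext (map_mul ρ a b)

@[simp] theorem coe_toA (ρ : H →* R) (h : H) : ((toA ρ h : spanA ρ) : R) = ρ h := rfl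

theorem spanA_induction (ρ : H →* R) {P : spanA ρ → Prop} (h1 : ∀ g, P (toA ρ g)) (h0 : P 0)
    (ha : ∀ x y, P x → P y → P (x + y)) (hs : ∀ (c : ℚ) x, P x → P (c • x)) (x : spanA ρ) :
    P x := by
  obtain ⟨x, hx⟩ := x
  change x ∈ Submodule.span ℚ (Set.range ρ) at hx
  induction hx using Submodule.span_induction with
  | mem x hx =>
    obtain ⟨g, rfl⟩ := hx
    exact h1 g
  | zero => exact h0
  | add x y hx hy h1 h2 => exact ha ⟨x, hx⟩ ⟨y, hy⟩ h1 h2
  | smul c x hx h => exact hs c ⟨x, hx⟩ h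

instance [Finite H] (ρ : H →* R) : FiniteDimensional ℚ (spanA ρ) :=
  FiniteDimensional.span_of_finite ℚ (Set.finite_range ρ)

variable [Finite H] {ρ : H →* R}

theorem Rk2.exists_mid (hR : Rk2 R) (hi : Irr ρ) {e f : R} (he : IsIdempotentElem e)
    (hf : IsIdempotentElem f) (he0 : e ≠ 0) (hf0 : f ≠ 0) (hf1 : f ≠ 1) :
    ∃ g, e * ρ g * f ≠ 0 := by
  classical
  by_contra hc
  push Not at hc
  have := Fintype.ofFinite H
  have hef : e * f = 0 := by simpa using hc 1
  have h1 : e * (1 - f) = e := by rw [mul_sub, mul_one, hef, sub_zero]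
  have h2 : (1 - f) * e = 1 - f :=
    hR.mul_eq he hf.one_sub he0 (by simpa using hf0) h1
  have h3 : ∀ g, f * ρ g * f = ρ g * f := by
    intro g
    have : (1 - f) * ρ g * f = 0 := by rw [← h2, mul_assoc, mul_assoc, ← mul_assoc e, hc, mul_zero]
    rw [sub_mul, sub_mul, one_mul] at this
    exact (sub_eq_zero.1 this).symm
  have hcard : (Fintype.card H : ℚ) ≠ 0 := by exact_mod_cast Fintype.card_ne_zero
  set E := (Fintype.card H : ℚ)⁻¹ • ∑ g, ρ g * f * ρ g⁻¹ with hE
  have hEf : E * f = f := by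
    rw [hE, smul_mul_assoc, Finset.sum_mul, Finset.sum_congr rfl (g := fun _ => f),
      Finset.sum_const, Finset.card_univ, ← Nat.cast_smul_eq_nsmul ℚ, smul_smul,
      inv_mul_cancel₀ hcard, one_smul]
    intro g _
    rw [mul_assoc (ρ g), mul_assoc (ρ g), h3, ← mul_assoc, ← map_mul, mul_inv_cancel, map_one,
      one_mul]
  have hfE : f * E = E := by
    rw [hE, mul_smul_comm, Finset.mul_sum]
    congr 1
    refine Finset.sum_congr rfl fun g _ => ?_
    rw [← mul_assoc, ← mul_assoc, h3]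
  have hEi : IsIdempotentElem E := by
    unfold IsIdempotentElem
    conv_lhs => enter [2]; rw [← hfE]
    rw [← mul_assoc, hEf, hfE]
  have hEc : ∀ h, Commute E (ρ h) := by
    intro h
    rw [hE]
    refine Commute.smul_left ?_ _
    unfold Commute SemiconjBy
    rw [Finset.sum_mul, Finset.mul_sum]
    refine Fintype.sum_equiv (Equiv.mulLeft h⁻¹) _ _ fun g => ?_
    simp only [Equiv.coe_mulLeft, mul_inv_rev, inv_inv, map_mul, ← mul_assoc]
    rw [← map_mul ρ h, mul_inv_cancel, map_one, one_mul]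
  rcases hi E hEi hEc with h | h
  · rw [h, zero_mul] at hEf
    exact hf0 hEf.symm
  · rw [h, mul_one] at hfE
    exact hf1 hfE

theorem Rk2.finrank_le (hR : Rk2 R) (hi : Irr ρ) {e f : spanA ρ} (he : IsIdempotentElem e)
    (hf : IsIdempotentElem f) (he0 : e ≠ 0) (hf0 : f ≠ 0) (hf1 : f ≠ 1) :
    finrank ℚ (LinearMap.range (LinearMap.mulLeft ℚ f))
      ≤ finrank ℚ (LinearMap.range (LinearMap.mulLeft ℚ e)) := by
  have he' : IsIdempotentElem (e : R) := congrArg Subtype.val he
  have hf' : IsIdempotentElem (f : R) := congrArg Subtype.val hf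
  have hf1' : (f : R) ≠ 1 := fun h => hf1 (Subtype.ext h)
  obtain ⟨g, hg⟩ := hR.exists_mid hi he' hf' (fun h => he0 (Subtype.ext h))
    (fun h => hf0 (Subtype.ext h)) hf1'
  let φ : LinearMap.range (LinearMap.mulLeft ℚ f) →ₗ[ℚ] LinearMap.range (LinearMap.mulLeft ℚ e) :=
    (LinearMap.mulLeft ℚ (e * toA ρ g)).restrict (by
      intro x _
      exact ⟨toA ρ g * x, by simp⟩)
  refine LinearMap.finrank_le_finrank_of_injective (f := φ) ?_
  rw [injective_iff_map_eq_zero]
  rintro ⟨_, y, rfl⟩ hy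
  have h1 : (e : R) * ρ g * f * y = 0 := by
    have := congrArg (fun z => ((z.1 : spanA ρ) : R)) hy
    simpa [φ, mul_assoc] using this
  exact Subtype.ext (Subtype.ext (hR.cancel hf' hf1' hg h1))

theorem Rk2.dvd_finrank_idem (hR : Rk2 R) (hi : Irr ρ) {e : spanA ρ} (he : IsIdempotentElem e) :
    finrank ℚ (spanA ρ) ∣ 2 * finrank ℚ (LinearMap.range (LinearMap.mulLeft ℚ e)) := by
  by_cases he0 : e = 0
  · subst he0
    rw [LinearMap.mulLeft_zero_eq_zero, LinearMap.range_zero, finrank_bot]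
    exact dvd_zero _
  by_cases he1 : e = 1
  · subst he1
    have : LinearMap.range (LinearMap.mulLeft ℚ (1 : spanA ρ)) = ⊤ := by
      rw [LinearMap.range_eq_top]
      exact fun x => ⟨x, by simp⟩
    rw [this, finrank_top]
    exact dvd_mul_left _ _
  have hf0 : 1 - e ≠ 0 := fun h => he1 (sub_eq_zero.1 h).symm
  have hf1 : 1 - e ≠ 1 := by simpa using he0
  have a1 := hR.finrank_le hi he he.one_sub he0 hf0 hf1
  have a2 := hR.finrank_le hi he.one_sub he hf0 he0 he1
  have idem : ∀ x : spanA ρ, IsIdempotentElem x →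
      LinearMap.trace ℚ _ (LinearMap.mulLeft ℚ x)
        = finrank ℚ (LinearMap.range (LinearMap.mulLeft ℚ x)) := by
    intro x hx
    refine (LinearMap.IsIdempotentElem.isProj_range _ ?_).trace
    ext y
    simp [← mul_assoc, hx.eq]
  have a3 : LinearMap.mulLeft ℚ e + LinearMap.mulLeft ℚ (1 - e) = 1 := by
    ext y
    simp [sub_mul]
  have a4 := congrArg (LinearMap.trace ℚ _) a3
  rw [map_add, idem e he, idem _ he.one_sub, LinearMap.trace_one] at a4
  have a5 : finrank ℚ (LinearMap.range (LinearMap.mulLeft ℚ e))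
      + finrank ℚ (LinearMap.range (LinearMap.mulLeft ℚ (1 - e))) = finrank ℚ (spanA ρ) := by
    exact_mod_cast a4
  exact Dvd.intro 1 (by omega)

theorem Rk2.dvd_finrank (hR : Rk2 R) (hi : Irr ρ) (I : Submodule ℚ (spanA ρ))
    (hI : ∀ g, ∀ x ∈ I, x * toA ρ g ∈ I) : finrank ℚ (spanA ρ) ∣ 2 * finrank ℚ I := by
  classical
  have := Fintype.ofFinite H
  obtain ⟨K, hK⟩ := I.exists_isCompl
  let π : spanA ρ →ₗ[ℚ] spanA ρ := I.subtype ∘ₗ I.projectionOnto K hK
  have hπ1 : ∀ x, π x ∈ I := fun x => (I.projectionOnto K hK x).2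
  have hπ2 : ∀ x ∈ I, π x = x := fun x hx =>
    congrArg Subtype.val (Submodule.projectionOnto_apply_left hK ⟨x, hx⟩)
  have hcard : (Fintype.card H : ℚ) ≠ 0 := by exact_mod_cast Fintype.card_ne_zero
  have hI' : ∀ y, ∀ x ∈ I, x * y ∈ I := by
    intro y x hx
    induction y using spanA_induction with
    | h1 g => exact hI g x hx
    | h0 => simp
    | ha y z h1 h2 => rw [mul_add]; exact add_mem h1 h2
    | hs c y h => rw [mul_smul_comm]; exact I.smul_mem c h
  set e := (Fintype.card H : ℚ)⁻¹ • ∑ g, π (toA ρ g⁻¹) * toA ρ g with he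
  have heI : e ∈ I := I.smul_mem _ (I.sum_mem fun g _ => hI g _ (hπ1 _))
  have key : ∀ x, e * x = (Fintype.card H : ℚ)⁻¹ • ∑ g, π (x * toA ρ g⁻¹) * toA ρ g := by
    intro x
    induction x using spanA_induction with
    | h1 h =>
      rw [he, smul_mul_assoc, Finset.sum_mul]
      congr 1
      refine Fintype.sum_equiv (Equiv.mulRight h) _ _ fun g => ?_
      simp only [Equiv.coe_mulRight, mul_inv_rev, map_mul, ← mul_assoc]
      rw [← map_mul (toA ρ) h, mul_inv_cancel, map_one, one_mul]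
    | h0 => simp
    | ha y z h1 h2 =>
      simp only [mul_add, h1, h2, add_mul, map_add, Finset.sum_add_distrib, smul_add]
    | hs c y h =>
      simp only [mul_smul_comm, h, smul_mul_assoc, map_smul, ← Finset.smul_sum]
      rw [smul_comm]
  have hx : ∀ x ∈ I, e * x = x := by
    intro x hx
    rw [key, Finset.sum_congr rfl (g := fun _ => x), Finset.sum_const, Finset.card_univ,
      ← Nat.cast_smul_eq_nsmul ℚ, smul_smul, inv_mul_cancel₀ hcard, one_smul]
    intro g _
    rw [hπ2 _ (hI _ x hx), mul_assoc, ← map_mul, inv_mul_cancel, map_one, mul_one]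
  have hr : LinearMap.range (LinearMap.mulLeft ℚ e) = I := by
    apply le_antisymm
    · rintro _ ⟨y, rfl⟩
      exact hI' y e heI
    · exact fun x h => ⟨x, hx x h⟩
  rw [← hr]
  exact hR.dvd_finrank_idem hi (hx e heI)

/-- The trace on the span. -/
theorem Rk2.exists_tr1 [Nontrivial R] (hR : Rk2 R) (hi : Irr ρ) :
    ∃ (S : Type u) (_ : Ring S) (_ : Algebra ℚ S) (T : S →ₗ[ℚ] ℚ) (L : H →* S),
      IsTr T 2 ∧ ∀ h, L h = 1 → ρ h = 1 := by
  let Rg : Set (End ℚ (spanA ρ)) := Set.range fun g => LinearMap.mulRight ℚ (toA ρ g)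
  have hd : finrank ℚ (spanA ρ) ≠ 0 := finrank_pos.ne'
  obtain ⟨T, hT⟩ := exists_isTr (n₀ := 2) Rg hd rfl fun U hU =>
    hR.dvd_finrank hi U fun g x hx => hU _ ⟨g, rfl⟩ x hx
  let L : H →* Subalgebra.centralizer ℚ Rg :=
    { toFun := fun h => ⟨LinearMap.mulLeft ℚ (toA ρ h), by
        rw [Subalgebra.mem_centralizer_iff]
        rintro _ ⟨g, rfl⟩
        ext y
        simp [mul_assoc]⟩
      map_one' := Subtype.ext (by ext y; simp)
      map_mul' := fun a b => Subtype.ext (by ext y; simp) }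
  refine ⟨Subalgebra.centralizer ℚ Rg, Subalgebra.toRing _, Subalgebra.algebra _, T, L, hT,
    fun h hh => ?_⟩
  have := congrArg (fun z => ((z.1 1 : spanA ρ) : R)) hh
  simpa [L] using this

/-- The trace on the span with a commuting square root of `-1` adjoined. -/
theorem Rk2.exists_tr2 [Nontrivial R] (hR : Rk2 R) (hi : Irr ρ) :
    ∃ (S : Type u) (_ : Ring S) (_ : Algebra ℚ S) (T : S →ₗ[ℚ] ℚ) (L : H →* S) (J : S),
      IsTr T 4 ∧ (∀ h, L h = 1 → ρ h = 1) ∧ (∀ h, ρ h = -1 → L h = -1) ∧ J * J = -1 ∧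
        ∀ h, Commute J (L h) := by
  let Rg : Set (End ℚ (spanA ρ × spanA ρ)) := Set.range fun g =>
    (LinearMap.mulRight ℚ (toA ρ g)).prodMap (LinearMap.mulRight ℚ (toA ρ g))
  have hd : finrank ℚ (spanA ρ) ≠ 0 := finrank_pos.ne'
  obtain ⟨T, hT⟩ := exists_isTr (n₀ := 4) Rg hd (by rw [finrank_prod]; ring) fun U hU => by
    have h1 := hR.dvd_finrank hi (U.map (LinearMap.fst ℚ _ _)) (by
      rintro g _ ⟨x, hx, rfl⟩
      exact ⟨_, hU _ ⟨g, rfl⟩ x hx, rfl⟩)
    have h2 := hR.dvd_finrank hi (U.comap (LinearMap.inr ℚ _ _)) (by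
      intro g x hx
      have := hU _ ⟨g, rfl⟩ _ hx
      simpa using this)
    have h3 := LinearMap.finrank_range_add_finrank_ker ((LinearMap.fst ℚ _ _).domRestrict U)
    rw [LinearMap.range_domRestrict] at h3
    have h4 : finrank ℚ (LinearMap.ker ((LinearMap.fst ℚ _ _).domRestrict U))
        = finrank ℚ (U.comap (LinearMap.inr ℚ _ _)) := by
      refine LinearEquiv.finrank_eq
        { toFun := fun x => ⟨x.1.1.2, by
            have h := x.2
            have h' : x.1.1.1 = 0 := h
            have : ((0, x.1.1.2) : spanA ρ × spanA ρ) = x.1.1 := Prod.ext h'.symm rfl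
            change ((0, x.1.1.2) : spanA ρ × spanA ρ) ∈ U
            rw [this]
            exact x.1.2⟩
          map_add' := fun x y => rfl
          map_smul' := fun c x => rfl
          invFun := fun y => ⟨⟨(0, y.1), y.2⟩, rfl⟩
          left_inv := fun x => by
            have h' : x.1.1.1 = 0 := x.2
            exact Subtype.ext (Subtype.ext (Prod.ext h'.symm rfl))
          right_inv := fun y => rfl }
    rw [← h3, h4, mul_add]
    exact dvd_add h1 h2
  let L : H →* Subalgebra.centralizer ℚ Rg :=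
    { toFun := fun h => ⟨(LinearMap.mulLeft ℚ (toA ρ h)).prodMap (LinearMap.mulLeft ℚ (toA ρ h)), by
        rw [Subalgebra.mem_centralizer_iff]
        rintro _ ⟨g, rfl⟩
        refine LinearMap.ext fun y => ?_
        simp [mul_assoc]⟩
      map_one' := Subtype.ext (LinearMap.ext fun y => by simp)
      map_mul' := fun a b => Subtype.ext (LinearMap.ext fun y => by simp) }
  let J : Subalgebra.centralizer ℚ Rg :=
    ⟨(-LinearMap.snd ℚ _ _).prod (LinearMap.fst ℚ _ _), by
        rw [Subalgebra.mem_centralizer_iff]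
        rintro _ ⟨g, rfl⟩
        refine LinearMap.ext fun y => ?_
        simp⟩
  refine ⟨Subalgebra.centralizer ℚ Rg, Subalgebra.toRing _, Subalgebra.algebra _, T, L, J, hT,
    fun h hh => ?_, fun h hh => ?_, ?_,
    fun h => ?_⟩
  · have := congrArg (fun z => (((z.1 (1, 0)).1 : spanA ρ) : R)) hh
    simpa [L] using this
  · have : toA ρ h = -1 := Subtype.ext hh
    refine Subtype.ext (LinearMap.ext fun y => ?_)
    simp [L, this]
    rfl
  · refine Subtype.ext (LinearMap.ext fun y => ?_)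
    simp [J]
    rfl
  · refine Subtype.ext (LinearMap.ext fun y => ?_)
    simp [J, L]

end span

end Cfsg.Agent.GL2D
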